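import Cfsg.Agent.Lib.Helper2.BG96Defs
import Cfsg.Agent.Lib.Helper58.BG9e
import Cfsg.Agent.Lib.Helper14.AxB
import Cfsg.Agent.Lib.Helper3.ClassTwo
import Cfsg.Agent.Lib.Helper1.S4Sec
import Cfsg.Agent.Lib.Helper52.Subn
import Cfsg.Agent.S1324
import Cfsg.Agent.S1452

/-!
Bender-Glauberman Theorem 9.6 (statement S1402), rung R2 of helper2's ladder: existence of a `Pack`.
-/

set_option autoImplicit false

namespace Cfsg.Agent.Lib.Helper14.BG96

open Subgroup Cfsg.Agent.Lib.Helper28 Cfsg.Agent.Lib.Helper30 Cfsg.Agent.Lib.Helper58.BG9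
  Cfsg.Agent.Lib.Helper2.BG96
open scoped commutatorElement

universe u

variable {G : Type u} [Group G]

/-- `Ω₁(Z(T))` as a subgroup of the ambient group. -/
def oz (t : ℕ) (T : Subgroup G) : Subgroup G where
  carrier := {x | x ∈ T ∧ x ∈ centralizer (T : Set G) ∧ x ^ t = 1}
  one_mem' := ⟨T.one_mem, Subgroup.one_mem _, one_pow _⟩
  mul_mem' := by
    rintro a b ⟨ha, hac, hat⟩ ⟨hb, hbc, hbt⟩
    refine ⟨T.mul_mem ha hb, Subgroup.mul_mem _ hac hbc, ?_⟩
    have hcomm : Commute a b := mem_centralizer_iff.mp hbc a ha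
    rw [hcomm.mul_pow, hat, hbt, one_mul]
  inv_mem' := by
    rintro a ⟨ha, hac, hat⟩
    exact ⟨T.inv_mem ha, Subgroup.inv_mem _ hac, by rw [inv_pow, hat, inv_one]⟩

theorem mem_oz {t : ℕ} {T : Subgroup G} {x : G} :
    x ∈ oz t T ↔ x ∈ T ∧ x ∈ centralizer (T : Set G) ∧ x ^ t = 1 := Iff.rfl

theorem oz_le (t : ℕ) (T : Subgroup G) : oz t T ≤ T := fun _ h => h.1

theorem oz_le_centralizer (t : ℕ) (T : Subgroup G) : oz t T ≤ centralizer (T : Set G) :=
  fun _ h => h.2.1

theorem oz_elementary (t : ℕ) (T : Subgroup G) : Cfsg.IsElementaryAbelian t (oz t T) :=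
  ⟨⟨⟨fun a b => Subtype.ext (mem_centralizer_iff.mp b.2.2.1 a a.2.1)⟩⟩, fun _ ha => ha.2.2⟩

theorem conj_mem_of_mem_normalizer {T : Subgroup G} {g x : G} (hg : g ∈ normalizer (T : Set G))
    (hx : x ∈ T) : g * x * g⁻¹ ∈ T := (mem_normalizer_iff.mp hg x).mp hx

theorem conj_inv_mem_of_mem_normalizer {T : Subgroup G} {g x : G}
    (hg : g ∈ normalizer (T : Set G)) (hx : x ∈ T) : g⁻¹ * x * g ∈ T := by
  have := conj_mem_of_mem_normalizer (Subgroup.inv_mem _ hg) hx
  simpa using this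

theorem normalizer_le_normalizer_oz (t : ℕ) (T : Subgroup G) :
    normalizer (T : Set G) ≤ normalizer (oz t T : Set G) := by
  apply Cfsg.Agent.Lib.Helper52.le_normalizer_of_conj_mem
  rintro g hg x ⟨hx, hxc, hxt⟩
  refine ⟨conj_mem_of_mem_normalizer hg hx, ?_, by rw [conj_pow, hxt]; group⟩
  rw [mem_centralizer_iff]
  intro y hy
  have h1 := mem_centralizer_iff.mp hxc _ (conj_inv_mem_of_mem_normalizer hg hy)
  calc y * (g * x * g⁻¹) = g * ((g⁻¹ * y * g) * x) * g⁻¹ := by group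
    _ = g * (x * (g⁻¹ * y * g)) * g⁻¹ := by rw [h1]
    _ = g * x * g⁻¹ * y := by group

/-- the elements `x` of `T` of order dividing `t` with `[x, T] ≤ Ω₁(Z(T))`. -/
def o2 (t : ℕ) (ht : t ∣ t.choose 2) (T : Subgroup G) : Subgroup G where
  carrier := {x | x ∈ T ∧ x ^ t = 1 ∧ ∀ y ∈ T, x * y * x⁻¹ * y⁻¹ ∈ oz t T}
  one_mem' := ⟨T.one_mem, one_pow _, fun y _ => by simp⟩
  mul_mem' := by
    rintro a b ⟨ha, hat, hac⟩ ⟨hb, hbt, hbc⟩
    refine ⟨T.mul_mem ha hb, ?_, ?_⟩
    · have hz := hac b hb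
      set z := a * b * a⁻¹ * b⁻¹ with hzdef
      have hza : Commute z a := (mem_centralizer_iff.mp hz.2.1 a ha).symm
      have hzb : Commute z b := (mem_centralizer_iff.mp hz.2.1 b hb).symm
      have h1 : b * a = a * b * z⁻¹ := by
        have h2 : z * (b * a) = a * b := by rw [hzdef]; group
        have h3 : Commute z (a * b) := hza.mul_right hzb
        calc b * a = z⁻¹ * (z * (b * a)) := by group
          _ = z⁻¹ * (a * b) := by rw [h2]
          _ = a * b * z⁻¹ := (h3.inv_left).eq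
      rw [Cfsg.Agent.Lib.Helper3.mul_pow_of_central h1 hza.inv_left hzb.inv_left, hat, hbt]
      obtain ⟨k, hk⟩ := ht
      rw [hk, pow_mul, inv_pow, hz.2.2]
      simp
    · intro y hy
      have h1 := hac y hy
      have h2 := hbc y hy
      have h3 : Commute (b * y * b⁻¹ * y⁻¹) a := (mem_centralizer_iff.mp h2.2.1 a ha).symm
      have : a * b * y * (a * b)⁻¹ * y⁻¹ = (b * y * b⁻¹ * y⁻¹) * (a * y * a⁻¹ * y⁻¹) := by
        calc a * b * y * (a * b)⁻¹ * y⁻¹ = (a * (b * y * b⁻¹ * y⁻¹)) * y * a⁻¹ * y⁻¹ := by group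
          _ = ((b * y * b⁻¹ * y⁻¹) * a) * y * a⁻¹ * y⁻¹ := by rw [h3.eq]
          _ = _ := by group
      rw [this]
      exact Subgroup.mul_mem _ h2 h1
  inv_mem' := by
    rintro a ⟨ha, hat, hac⟩
    refine ⟨T.inv_mem ha, by rw [inv_pow, hat, inv_one], ?_⟩
    intro y hy
    have h1 := hac y hy
    have h3 : Commute (a * y * a⁻¹ * y⁻¹) a := (mem_centralizer_iff.mp h1.2.1 a ha).symm
    have : a⁻¹ * y * a⁻¹⁻¹ * y⁻¹ = (a * y * a⁻¹ * y⁻¹)⁻¹ := by
      calc a⁻¹ * y * a⁻¹⁻¹ * y⁻¹ = a⁻¹ * ((a * y * a⁻¹ * y⁻¹)⁻¹ * a) := by group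
        _ = a⁻¹ * (a * (a * y * a⁻¹ * y⁻¹)⁻¹) := by rw [h3.inv_left.eq]
        _ = _ := by group
    rw [this]
    exact Subgroup.inv_mem _ h1

theorem o2_le (t : ℕ) (ht : t ∣ t.choose 2) (T : Subgroup G) : o2 t ht T ≤ T := fun _ h => h.1

theorem oz_le_o2 (t : ℕ) (ht : t ∣ t.choose 2) (T : Subgroup G) : oz t T ≤ o2 t ht T := by
  rintro x ⟨hx, hxc, hxt⟩
  refine ⟨hx, hxt, fun y hy => ?_⟩
  have h1 : y * x = x * y := mem_centralizer_iff.mp hxc y hy
  have : x * y * x⁻¹ * y⁻¹ = 1 := by rw [← h1]; group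
  rw [this]
  exact Subgroup.one_mem _

theorem normalizer_le_normalizer_o2 (t : ℕ) (ht : t ∣ t.choose 2) (T : Subgroup G) :
    normalizer (T : Set G) ≤ normalizer (o2 t ht T : Set G) := by
  apply Cfsg.Agent.Lib.Helper52.le_normalizer_of_conj_mem
  rintro g hg x ⟨hx, hxt, hxc⟩
  refine ⟨conj_mem_of_mem_normalizer hg hx, by rw [conj_pow, hxt]; group, ?_⟩
  intro y hy
  have h1 := hxc _ (conj_inv_mem_of_mem_normalizer hg hy)
  have h2 := conj_mem_of_mem_normalizer (normalizer_le_normalizer_oz t T hg) h1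
  have : g * x * g⁻¹ * y * (g * x * g⁻¹)⁻¹ * y⁻¹ =
      g * (x * (g⁻¹ * y * g) * x⁻¹ * (g⁻¹ * y * g)⁻¹) * g⁻¹ := by group
  rw [this]
  exact h2

/-- every subgroup between `oz` and `o2` is normalized by `T`. -/
theorem le_normalizer_of_between {t : ℕ} {ht : t ∣ t.choose 2} {T W : Subgroup G}
    (h1 : oz t T ≤ W) (h2 : W ≤ o2 t ht T) : T ≤ normalizer (W : Set G) := by
  apply Cfsg.Agent.Lib.Helper52.le_normalizer_of_conj_mem
  intro y hy w hw
  have hz := (h2 hw).2.2 y hy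
  have : y * w * y⁻¹ = (w * y * w⁻¹ * y⁻¹)⁻¹ * w := by group
  rw [this]
  exact W.mul_mem (W.inv_mem (h1 hz)) hw

theorem not_isCyclic_of_elementary {t : ℕ} [ht : Fact t.Prime] {E : Subgroup G}
    (hE : Cfsg.IsElementaryAbelian t E) (hc : t ^ 2 ≤ Nat.card E) : ¬ IsCyclic E := by
  intro hEcyc
  obtain ⟨g, hg⟩ := hEcyc.exists_generator
  have h1 : Nat.card E = orderOf g := (orderOf_eq_card_of_forall_mem_zpowers hg).symm
  have h2 : orderOf g ∣ t := orderOf_dvd_of_pow_eq_one (Subtype.ext (hE.2 g g.2))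
  have h3 := Nat.le_of_dvd ht.out.pos h2
  have h4 : t ^ 1 < t ^ 2 := Nat.pow_lt_pow_right ht.out.one_lt (by norm_num)
  rw [pow_one] at h4
  omega

/-- if `Ω₁(Z(T))` has order less than `t ^ 2` then `o2` is strictly larger. -/
theorem exists_mem_o2_not_mem_oz [Finite G] {t : ℕ} [Fact t.Prime] (ht2 : t ≠ 2)
    (ht : t ∣ t.choose 2) {T : Subgroup G} (hT : IsPGroup t T) (hnc : ¬ IsCyclic T)
    (hlt : Nat.card (oz t T) < t ^ 2) : ∃ w ∈ o2 t ht T, w ∉ oz t T := by
  obtain ⟨W, hWT, hTW, hW, hWc⟩ := exists_normal_sq ht2 hT hnc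
  have htp : t.Prime := Fact.out
  have hWp : IsPGroup t W := isPGroup_of_elementary hW
  have hW1 : W ≠ ⊥ := by
    rintro rfl
    rw [card_bot] at hWc
    have := Nat.one_lt_pow (n := 2) (by norm_num) htp.one_lt
    omega
  have hC := Cfsg.Agent.Lib.Helper14.commutator_lt_of_isPGroup hWp hT hTW hW1
  set C := ⁅W, T⁆ with hCdef
  have hCp : IsPGroup t C := hWp.to_le hC.le
  have hTC : T ≤ normalizer (C : Set G) :=
    le_sup_right.trans (Cfsg.Agent.Lib.Helper52.le_normalizer_commutator W T)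
  have hCoz : C ≤ oz t T := by
    by_cases hC1 : C = ⊥
    · rw [hC1]; exact bot_le
    have hCC := Cfsg.Agent.Lib.Helper14.commutator_lt_of_isPGroup hCp hT hTC hC1
    -- orders
    have hcC : Nat.card C < t ^ 2 := hWc ▸ Cfsg.Agent.Lib.Helper14.card_lt_card_of_lt hC
    have hcCC : Nat.card (⁅C, T⁆ : Subgroup G) < Nat.card C :=
      Cfsg.Agent.Lib.Helper14.card_lt_card_of_lt hCC
    obtain ⟨n, hn⟩ := IsPGroup.iff_card.mp hCp
    obtain ⟨m, hm⟩ := IsPGroup.iff_card.mp (hCp.to_le hCC.le)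
    rw [hn] at hcC hcCC
    rw [hm] at hcCC
    have hn2 : n < 2 := (Nat.pow_lt_pow_iff_right htp.one_lt).mp hcC
    have hmn : m < n := (Nat.pow_lt_pow_iff_right htp.one_lt).mp hcCC
    have hm0 : m = 0 := by omega
    rw [hm0, pow_zero] at hm
    have hbot : ⁅C, T⁆ = ⊥ := Subgroup.card_eq_one.mp hm
    intro x hx
    refine ⟨hWT (hC.le hx), ?_, hW.2 x (hC.le hx)⟩
    have := (Subgroup.commutator_eq_bot_iff_le_centralizer).mp hbot
    exact this hx
  have hWo2 : W ≤ o2 t ht T := by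
    intro w hw
    refine ⟨hWT hw, hW.2 w hw, fun y hy => hCoz ?_⟩
    have := Subgroup.commutator_mem_commutator hw hy
    rwa [commutatorElement_def] at this
  by_contra hcon
  push Not at hcon
  have hle : W ≤ oz t T := fun w hw => hcon w (hWo2 hw)
  have := Subgroup.card_le_of_le hle
  omega

theorem commutator_le_centralizer_of_isCyclic {D L : Subgroup G} (hD : IsCyclic D)
    (hL : L ≤ normalizer (D : Set G)) : ⁅L, L⁆ ≤ centralizer (D : Set G) := by
  rw [Subgroup.commutator_le]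
  intro x hx y hy
  have hcomm : ∀ f g : MulAut D, f * g = g * f := by
    intro f g
    apply (hD.mulAutMulEquiv D).injective
    rw [map_mul, map_mul, mul_comm]
  have h1 : (⁅(⟨x, hL hx⟩ : Subgroup.normalizer (D : Set G)), ⟨y, hL hy⟩⁆) ∈
      D.normalizerMonoidHom.ker := by
    rw [MonoidHom.mem_ker, map_commutatorElement, commutatorElement_eq_one_iff_mul_comm]
    exact hcomm _ _
  rw [Subgroup.normalizerMonoidHom_ker, Subgroup.mem_subgroupOf] at h1
  exact h1

/-- RUNG R2 of the proof of B-G 9.6: a maximal subgroup `L` whose derived subgroup contains `P ≥ A ≥ E`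
carries a `Pack`. -/
theorem exists_pack [Finite G] (hG : Cfsg.IsMinSimpleOddOrder G) {p : ℕ} [hp : Fact p.Prime]
    (hN : ∀ M : Subgroup G, IsCoatom M → Cfsg.PRankLE p 2 ↥(Cfsg.fittingOf M))
    {A E P L : Subgroup G} (hNC : NC p A) (hEA : E ≤ A) (hAP : A ≤ P)
    (hE : Cfsg.IsElementaryAbelian p E) (hE3 : Nat.card E = p ^ 3)
    (hL : IsCoatom L) (hPL' : P ≤ ⁅L, L⁆) :
    ∃ (t : ℕ) (V : Subgroup G), t.Prime ∧ t ≠ p ∧ Pack L V t := by
  have hpp : p.Prime := hp.out
  have hEL' : E ≤ ⁅L, L⁆ := hEA.trans (hAP.trans hPL')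
  have hLL : ⁅L, L⁆ ≤ L := Subgroup.commutator_le.mpr (fun a ha b hb => by
    rw [commutatorElement_def]
    exact L.mul_mem (L.mul_mem (L.mul_mem ha hb) (L.inv_mem ha)) (L.inv_mem hb))
  have hr : ¬ Cfsg.RankLE 2 (Cfsg.fittingOf L) := by
    intro hr
    have h1 : ⁅L, L⁆ ≤ Cfsg.fittingOf L := by
      rw [Subgroup.commutator_le]
      intro a ha b hb
      rw [commutatorElement_def]
      exact commutator_mem_fitIn (solvable_of_ne_top hG hL.1) (odd_card_subgroup hG L) hr ha hb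
    refine not_pRankLE_of_le (hEL'.trans h1) hE ?_ (hN L hL)
    rw [hE3]
    exact Nat.pow_lt_pow_right hpp.one_lt (by norm_num)
  unfold Cfsg.RankLE at hr
  push Not at hr
  obtain ⟨t, htp, hrt⟩ := hr
  have : Fact t.Prime := ⟨htp⟩
  have htne : t ≠ p := by
    rintro rfl
    exact hrt (hN L hL)
  obtain ⟨D0, hD0F, hD0, hD0c⟩ := exists_of_not_pRankLE hrt
  have hD0p := isPGroup_of_elementary hD0
  set T := opIn t L with hTdef
  have hD0T : D0 ≤ T := isPGroup_le_opIn hD0F hD0p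
  have hTp : IsPGroup t T := opIn_isPGroup t L
  have hTL : T ≤ L := opIn_le t L
  have hLT : L ≤ normalizer (T : Set G) := le_normalizer_opIn t L
  have hD0r : ¬ Cfsg.PRankLE t 2 D0 := not_pRankLE_of_le le_rfl hD0 hD0c
  have hD0U : Cfsg.InUniqueMaximal D0 := bg95 hG hL hrt hD0p hD0.1 hD0r
  have hD01 : D0 ≠ ⊥ := by
    rintro rfl
    rw [card_bot] at hD0c
    have := Nat.one_le_pow 2 t htp.pos
    omega
  have ht2 : t ≠ 2 := ne_two_of_isPGroup hG hD0p hD01
  have htch : t ∣ t.choose 2 := by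
    apply htp.dvd_choose_self (by norm_num)
    have := htp.two_le
    omega
  have huniq : ∀ D : Subgroup G, Cfsg.IsElementaryAbelian t D → t ^ 2 ≤ Nat.card D →
      (∃ D' : Subgroup G, Cfsg.IsElementaryAbelian t D' ∧ t ^ 2 < Nat.card D' ∧
        D' ≤ centralizer (D : Set G)) → Cfsg.InUniqueMaximal D := by
    rintro D hD hDc ⟨D', hD', hD'c, hD'D⟩
    exact bg94 hG hD0.1 hD0r hD0U (isPGroup_of_elementary hD) (not_isCyclic_of_elementary hD hDc)
      (not_pRankLE_of_le hD'D hD' hD'c)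
  by_cases hcard : t ^ 2 ≤ Nat.card (oz t T)
  · refine ⟨t, oz t T, htp, htne, ⟨hL, (oz_le t T).trans hTL,
      hLT.trans (normalizer_le_normalizer_oz t T), oz_elementary t T, hcard, ?_, ?_⟩⟩
    · intro D hD hDc
      exact huniq D (elementary_mono (oz_elementary t T) hD) hDc ⟨D0, hD0, hD0c,
        hD0T.trans (le_centralizer_symm (hD.trans (oz_le_centralizer t T)))⟩
    · intro D D' hD' hDD' hDc hD'c
      exact huniq D (elementary_mono hD' hDD') hDc ⟨D', hD', hD'c,
        (le_centralizer_self_of_elementary hD').trans (centralizer_le hDD')⟩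
  exfalso
  have hlt : Nat.card (oz t T) < t ^ 2 := not_le.mp hcard
  have hTnc : ¬ IsCyclic T := fun h =>
    (not_isCyclic_of_elementary hD0 hD0c.le)
      (isCyclic_of_injective (inclusion hD0T) (inclusion_injective hD0T))
  obtain ⟨w0, hw0, hw0'⟩ := exists_mem_o2_not_mem_oz ht2 htch hTp hTnc hlt
  have hoz1 : oz t T ≠ ⊥ := by
    intro hbot
    apply hw0'
    refine ⟨hw0.1, ?_, hw0.2.1⟩
    rw [mem_centralizer_iff]
    intro y hy
    have := hw0.2.2 y hy
    rw [hbot, mem_bot] at this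
    calc y * w0 = (w0 * y * w0⁻¹ * y⁻¹)⁻¹ * (w0 * y) := by group
      _ = w0 * y := by rw [this]; simp
  have hozc : Nat.card (oz t T) = t := by
    obtain ⟨n, hn⟩ := IsPGroup.iff_card.mp (isPGroup_of_elementary (oz_elementary t T))
    have hn2 : n < 2 := by
      rw [hn] at hlt
      exact (Nat.pow_lt_pow_iff_right htp.one_lt).mp hlt
    have hn0 : n ≠ 0 := by
      rintro rfl
      rw [pow_zero] at hn
      exact hoz1 (Subgroup.card_eq_one.mp hn)
    have : n = 1 := by omega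
    rw [hn, this, pow_one]
  have hozcyc : IsCyclic (oz t T) := isCyclic_of_prime_card hozc
  have hEoz : E ≤ centralizer (oz t T : Set G) :=
    hEL'.trans (commutator_le_centralizer_of_isCyclic hozcyc
      (hLT.trans (normalizer_le_normalizer_oz t T)))
  set T1 := o2 t htch T with hT1def
  have hT1T : T1 ≤ T := o2_le t htch T
  have hT1p : IsPGroup t T1 := hTp.to_le hT1T
  have hcop : ¬ p ∣ Nat.card T1 := by
    obtain ⟨n, hn⟩ := IsPGroup.iff_card.mp hT1p
    rw [hn]
    intro h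
    exact htne ((Nat.prime_dvd_prime_iff_eq hpp htp).mp (hpp.dvd_of_dvd_pow h)).symm
  have hET1 : E ≤ normalizer (T1 : Set G) :=
    (hEL'.trans hLL).trans (hLT.trans (normalizer_le_normalizer_o2 t htch T))
  have hgen := Cfsg.Agent.S1324.result p E T1 hE
    (by rw [hE3]; exact Nat.pow_le_pow_right hpp.pos (by norm_num)) hcop hET1
  have hex : ∃ B : Subgroup G, B ≤ E ∧ B.relIndex E ≤ p ∧
      ∃ w ∈ T1 ⊓ centralizer (B : Set G), w ∉ oz t T := by
    by_contra hcon
    push Not at hcon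
    apply hw0'
    have hle : T1 ≤ oz t T :=
      hgen.le.trans (iSup_le fun B => fun w hw => hcon B.1 B.2.1 B.2.2 w hw)
    exact hle hw0
  obtain ⟨B, hBE, hBi, w, hw, hwoz⟩ := hex
  have hB2 : p ^ 2 ≤ Nat.card B := by
    have h1 := Cfsg.Agent.Lib.Helper1.card_mul_relIndex hBE
    rw [hE3] at h1
    have h2 : p ^ 2 * p ≤ Nat.card B * p := by
      calc p ^ 2 * p = p ^ 3 := by ring
        _ = Nat.card B * B.relIndex E := h1.symm
        _ ≤ Nat.card B * p := Nat.mul_le_mul_left _ hBi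
    exact Nat.le_of_mul_le_mul_right h2 hpp.pos
  have hwT1 : w ∈ T1 := hw.1
  have hwB : w ∈ centralizer (B : Set G) := hw.2
  have hwT : w ∈ T := hT1T hwT1
  set W := oz t T ⊔ zpowers w with hWdef
  have hWle : W ≤ T1 := sup_le (oz_le_o2 t htch T) (zpowers_le.mpr hwT1)
  have hTW : T ≤ normalizer (W : Set G) := le_normalizer_of_between le_sup_left hWle
  have hWT : W ≤ T := hWle.trans hT1T
  have hWc : W ≤ centralizer (W : Set G) := by
    have h1 : W ≤ centralizer (oz t T : Set G) :=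
      hWT.trans (le_centralizer_symm (oz_le_centralizer t T))
    have h2 : W ≤ centralizer (zpowers w : Set G) := by
      refine sup_le ((oz_le_centralizer t T).trans (centralizer_le (zpowers_le.mpr hwT))) ?_
      intro a ha
      rw [mem_centralizer_iff]
      intro b hb
      obtain ⟨i, rfl⟩ := mem_zpowers_iff.mp ha
      obtain ⟨j, rfl⟩ := mem_zpowers_iff.mp hb
      exact ((Commute.refl w).zpow_zpow j i).eq
    exact sup_le (le_centralizer_symm h1) (le_centralizer_symm h2)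
  have hWe : Cfsg.IsElementaryAbelian t W :=
    ⟨⟨⟨fun a b => Subtype.ext (mem_centralizer_iff.mp (hWc b.2) a a.2)⟩⟩,
      fun a ha => (hWle ha).2.1⟩
  have hw1 : w ≠ 1 := by
    rintro rfl
    exact hwoz (Subgroup.one_mem _)
  have hwo : orderOf w = t := orderOf_eq_prime hwT1.2.1 hw1
  have hzc : Nat.card (zpowers w) = t := by rw [Nat.card_zpowers, hwo]
  have hdisj : oz t T ⊓ zpowers w = ⊥ := by
    have hdvd : Nat.card (oz t T ⊓ zpowers w : Subgroup G) ∣ t :=
      hzc ▸ Subgroup.card_dvd_of_le inf_le_right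
    rcases (Nat.dvd_prime htp).mp hdvd with h | h
    · exact Subgroup.card_eq_one.mp h
    · exfalso
      have heq : oz t T ⊓ zpowers w = zpowers w :=
        Subgroup.eq_of_le_of_card_ge inf_le_right (by rw [h, hzc])
      apply hwoz
      have : w ∈ oz t T ⊓ zpowers w := by
        rw [heq]
        exact mem_zpowers w
      exact this.1
  have hWcard : Nat.card W = t ^ 2 := by
    have h1 := Cfsg.Agent.Lib.Helper1.card_sup_of_disjoint_le_normalizer
      (H := zpowers w) (N := oz t T)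
      ((zpowers_le.mpr hwT).trans ((le_centralizer_symm (oz_le_centralizer t T)).trans
        (centralizer_le_normalizer _))) hdisj
    rw [hWdef, sup_comm, h1, hzc, hozc]
    ring
  have hWn : (W.subgroupOf T).Normal := (Subgroup.normal_subgroupOf_iff_le_normalizer hWT).mpr hTW
  obtain ⟨A', hWA', -, hA'C, hA'r⟩ := Cfsg.Agent.S1452.result (R := T) t ht2 hTp
    (not_pRankLE_of_le hD0T hD0 hD0c) (W.subgroupOf T) (elementary_subgroupOf hWe T)
    (by rw [card_subgroupOf hWT]; exact hWcard)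
  obtain ⟨E', hE'A', hE', hE'c⟩ := exists_of_not_pRankLE (G := T) hA'r
  have hWU : Cfsg.InUniqueMaximal W := by
    refine huniq W hWe hWcard.ge ⟨E'.map T.subtype, elementary_map hE'.1 hE'.2, ?_, ?_⟩
    · rwa [card_map_of_injective T.subtype_injective]
    · rintro _ ⟨x, hx, rfl⟩
      rw [mem_centralizer_iff]
      intro y hy
      have hxA : x ∈ centralizer (A' : Set T) := hA'C.symm ▸ hE'A' hx
      have hyA : (⟨y, hWT hy⟩ : T) ∈ A' := hWA' (mem_subgroupOf.mpr hy)
      exact congrArg Subtype.val (mem_centralizer_iff.mp hxA _ hyA)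
  exact hNC B (hBE.trans hEA) (elementary_mono hE hBE) hB2 W hWU
    (le_centralizer_symm (sup_le (le_centralizer_symm (hBE.trans hEoz)) (zpowers_le.mpr hwB)))

end Cfsg.Agent.Lib.Helper14.BG96
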