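import Cfsg.Agent.Lib.Helper14.Thompson
import Cfsg.Agent.Lib.Helper14.Cores
import Cfsg.Agent.Lib.Helper14.PSeries
import Cfsg.Agent.Lib.Helper31.ElemAb
import Cfsg.Prelude.Def_LocalEven

set_option autoImplicit false
open scoped commutatorElement

namespace Cfsg.Agent.Lib.Helper14

universe u

variable {p : ℕ}

/-- An element stabilising the chain `1 ≤ Z ≤ P` (`Z` of exponent `p`) has its `p`-th power in
`C(P)`. -/
theorem pow_mem_centralizer_of_stabilizes {Γ : Type*} [Group Γ] (P Z : Subgroup Γ)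
    (hZp : ∀ z ∈ Z, z ^ p = 1) (d : Γ) (hdZ : d ∈ Subgroup.centralizer (Z : Set Γ))
    (hdP : ∀ x ∈ P, ⁅d, x⁆ ∈ Z) : d ^ p ∈ Subgroup.centralizer (P : Set Γ) := by
  rw [Subgroup.mem_centralizer_iff]
  intro x hx
  have hz := hdP x hx
  have hcomm : ∀ n : ℕ, d * ⁅d, x⁆ ^ n = ⁅d, x⁆ ^ n * d := fun n =>
    ((Subgroup.mem_centralizer_iff.mp hdZ) _ (Z.pow_mem hz n)).symm
  have key : ∀ n : ℕ, d ^ n * x * (d ^ n)⁻¹ = ⁅d, x⁆ ^ n * x := by
    intro n
    induction n with
    | zero => simp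
    | succ n ih =>
      calc d ^ (n + 1) * x * (d ^ (n + 1))⁻¹ = d * (d ^ n * x * (d ^ n)⁻¹) * d⁻¹ := by
            rw [pow_succ']; group
        _ = d * ⁅d, x⁆ ^ n * x * d⁻¹ := by rw [ih]; group
        _ = ⁅d, x⁆ ^ n * (d * x * d⁻¹ * x⁻¹) * x := by rw [hcomm]; group
        _ = ⁅d, x⁆ ^ (n + 1) * x := by rw [pow_succ, commutatorElement_def]
  have h := key p
  rw [hZp _ hz, one_mul] at h
  calc x * d ^ p = (d ^ p * x * (d ^ p)⁻¹) * d ^ p := by rw [h]
    _ = d ^ p * x := by group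

variable [Fact p.Prime]

omit [Fact p.Prime] in
theorem mk_mem_pCore_of_exists_normal {Γ : Type*} [Group Γ] (C : Subgroup Γ) [C.Normal]
    (E : Subgroup Γ) (hE : E.Normal) {g : Γ} (hg : g ∈ E)
    (h : ∀ e ∈ E, ∃ k : ℕ, e ^ (p ^ k) ∈ C) :
    (QuotientGroup.mk g : Γ ⧸ C) ∈ Cfsg.pCore p (Γ ⧸ C) := by
  have hn : (E.map (QuotientGroup.mk' C)).Normal :=
    hE.map _ (QuotientGroup.mk'_surjective C)
  refine le_pCore hn ?_ (Subgroup.mem_map_of_mem (QuotientGroup.mk' C) hg)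
  rintro ⟨_, e, he, rfl⟩
  obtain ⟨k, hk⟩ := h e he
  refine ⟨k, Subtype.ext ?_⟩
  show (QuotientGroup.mk' C e) ^ (p ^ k) = 1
  rw [← map_pow]
  exact (QuotientGroup.eq_one_iff _).mpr hk

theorem exists_pow_mem_of_mk_mem_pCore {Γ : Type*} [Group Γ] [Finite Γ] (C : Subgroup Γ)
    [C.Normal] {e : Γ} (he : (QuotientGroup.mk e : Γ ⧸ C) ∈ Cfsg.pCore p (Γ ⧸ C)) :
    ∃ k : ℕ, e ^ (p ^ k) ∈ C := by
  obtain ⟨k, hk⟩ := (isPGroup_pCore (p := p) (G := Γ ⧸ C)) ⟨_, he⟩
  refine ⟨k, ?_⟩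
  have h1 : (QuotientGroup.mk e : Γ ⧸ C) ^ (p ^ k) = 1 := congrArg Subtype.val hk
  rw [← QuotientGroup.mk_pow] at h1
  exact (QuotientGroup.eq_one_iff _).mp h1

/-- Reduction of `p`-stability from normal `p`-subgroups to normal elementary abelian subgroups, for
a class `F` of groups closed under quotients. -/
theorem exists_normal_of_quadratic (F : ∀ (Γ : Type u) [Group Γ], Prop)
    (hFq : ∀ (Γ : Type u) [Group Γ] (N : Subgroup Γ) [N.Normal], F Γ → F (Γ ⧸ N))
    (hF : ∀ (Γ : Type u) [Group Γ] [Finite Γ], F Γ → ∀ (V : Subgroup Γ) [V.Normal],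
      Cfsg.IsElementaryAbelian p V → Cfsg.IsPStableOn p V) :
    ∀ (n : ℕ) (Γ : Type u) [Group Γ] [Finite Γ] (P : Subgroup Γ) [P.Normal], Nat.card P = n →
      IsPGroup p P → F Γ → ∀ g : Γ, ⁅⁅P, Subgroup.zpowers g⁆, Subgroup.zpowers g⁆ = ⊥ →
        ∃ E : Subgroup Γ, E.Normal ∧ g ∈ E ∧
          ∀ e ∈ E, ∃ k : ℕ, e ^ (p ^ k) ∈ Subgroup.centralizer (P : Set Γ) := by
  intro n
  induction n using Nat.strong_induction_on with
  | _ n ih =>
  intro Γ _ _ P _ hn hP hFΓ g hg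
  by_cases hbot : P = ⊥
  · refine ⟨⊤, inferInstance, Subgroup.mem_top g, fun e _ => ⟨0, ?_⟩⟩
    rw [hbot, Subgroup.mem_centralizer_iff]
    intro x hx
    rw [SetLike.mem_coe, Subgroup.mem_bot] at hx
    rw [hx, one_mul, mul_one]
  set Z := Cfsg.omegaOne p (P ⊓ Subgroup.centralizer (P : Set Γ)) with hZ
  have hZP : Z ≤ P := (omegaOne_le p _).trans inf_le_left
  have hZn : Z.Normal := omegaOne_normal p _
  have hZel : Cfsg.IsElementaryAbelian p Z := by
    apply Helper31.isElementaryAbelian_closure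
    · rintro x ⟨hx, -⟩ y ⟨hy, -⟩
      exact (Subgroup.mem_centralizer_iff.mp (Subgroup.mem_inf.mp hy).2 x
        (Subgroup.mem_inf.mp hx).1)
    · rintro x ⟨-, hx⟩
      exact hx
  have hZne : Z ≠ ⊥ := by
    intro hZbot
    have hnt : Nontrivial ↥P := (Subgroup.nontrivial_iff_ne_bot P).mpr hbot
    have hc : Nontrivial (Subgroup.center ↥P) := hP.center_nontrivial
    have hpc : IsPGroup p (Subgroup.center ↥P) := hP.to_subgroup _
    obtain ⟨m, hm⟩ := IsPGroup.iff_card.mp hpc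
    have hm0 : m ≠ 0 := by
      rintro rfl
      have : 1 < Nat.card (Subgroup.center ↥P) := Finite.one_lt_card
      rw [pow_zero] at hm
      omega
    have hdvd : p ∣ Nat.card (Subgroup.center ↥P) := by
      rw [hm]; exact dvd_pow_self p hm0
    obtain ⟨z, hz⟩ := exists_prime_orderOf_dvd_card' p hdvd
    have hz1 : ((z : ↥P) : Γ) ∈ Z := by
      apply mem_omegaOne
      · refine Subgroup.mem_inf.mpr ⟨(z : ↥P).2, ?_⟩
        rw [Subgroup.mem_centralizer_iff]
        intro x hx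
        exact congrArg Subtype.val (Subgroup.mem_center_iff.mp z.2 ⟨x, hx⟩)
      · have := pow_orderOf_eq_one z
        rw [hz] at this
        exact congrArg (fun w : ↥(Subgroup.center ↥P) => ((w : ↥P) : Γ)) this
    rw [hZbot, Subgroup.mem_bot] at hz1
    have hz3 : z = 1 := Subtype.ext (Subtype.ext hz1)
    rw [hz3, orderOf_one] at hz
    exact (Fact.out : p.Prime).one_lt.ne hz
  -- the action on `Z`
  have hgZ : ⁅⁅Z, Subgroup.zpowers g⁆, Subgroup.zpowers g⁆ = ⊥ := by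
    rw [eq_bot_iff, ← hg]
    exact Subgroup.commutator_mono (Subgroup.commutator_mono hZP le_rfl) le_rfl
  have h1 := hF Γ hFΓ Z hZel g hgZ
  -- the action on `P / Z`
  let π := QuotientGroup.mk' Z
  have hπ : Function.Surjective π := QuotientGroup.mk'_surjective Z
  have hPn : (P.map π).Normal := Subgroup.Normal.map inferInstance π hπ
  have hcard : Nat.card ↥(P.map π) < n := by
    rw [card_map_mk' Z P]
    have h2 := card_mul_relIndex hZP
    rw [hn] at h2
    have h3 : 1 < Nat.card Z := by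
      have : Nontrivial ↥Z := (Subgroup.nontrivial_iff_ne_bot Z).mpr hZne
      exact Finite.one_lt_card
    have h4 : 0 < Z.relIndex P := by
      rcases Nat.eq_zero_or_pos (Z.relIndex P) with h | h
      · rw [h, mul_zero] at h2
        have : 0 < Nat.card P := Nat.card_pos
        omega
      · exact h
    nlinarith
  have hgP : ⁅⁅P.map π, Subgroup.zpowers (π g)⁆, Subgroup.zpowers (π g)⁆ = ⊥ := by
    rw [← MonoidHom.map_zpowers, ← Subgroup.map_commutator, ← Subgroup.map_commutator, hg,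
      Subgroup.map_bot]
  obtain ⟨E₂, hE₂n, hgE₂, hE₂⟩ := ih _ hcard (Γ ⧸ Z) (P.map π) rfl (hP.map π) (hFq Γ Z hFΓ) (π g) hgP
  refine ⟨(Cfsg.pCore p (Γ ⧸ Subgroup.centralizer (Z : Set Γ))).comap
    (QuotientGroup.mk' (Subgroup.centralizer (Z : Set Γ))) ⊓ E₂.comap π, ?_,
    Subgroup.mem_inf.mpr ⟨h1, hgE₂⟩, ?_⟩
  · have := hE₂n.comap π
    infer_instance
  · intro e he
    obtain ⟨he1, he2⟩ := Subgroup.mem_inf.mp he
    obtain ⟨k₁, hk₁⟩ := exists_pow_mem_of_mk_mem_pCore (p := p) _ he1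
    obtain ⟨k₂, hk₂⟩ := hE₂ (π e) he2
    refine ⟨k₁ + k₂ + 1, ?_⟩
    rw [pow_succ, pow_mul]
    apply pow_mem_centralizer_of_stabilizes P Z hZel.2
    · rw [pow_add, pow_mul]
      exact Subgroup.pow_mem _ hk₁ _
    · intro x hx
      have h3 : π (e ^ p ^ (k₁ + k₂)) ∈ Subgroup.centralizer ((P.map π : Subgroup (Γ ⧸ Z)) : Set (Γ ⧸ Z)) := by
        rw [map_pow, pow_add, mul_comm, pow_mul]
        exact Subgroup.pow_mem _ hk₂ _
      have h4 := Subgroup.mem_centralizer_iff.mp h3 (π x) (Subgroup.mem_map_of_mem π hx)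
      apply (QuotientGroup.eq_one_iff _).mp
      show π ⁅e ^ p ^ (k₁ + k₂), x⁆ = 1
      rw [map_commutatorElement, commutatorElement_eq_one_iff_mul_comm, h4]

/-- `p`-stability in the normalizer form from a local hypothesis `F` on the normalizers of
`p`-subgroups. -/
theorem isNormalizerPStable_of_local (F : ∀ (Γ : Type u) [Group Γ], Prop)
    (hFq : ∀ (Γ : Type u) [Group Γ] (N : Subgroup Γ) [N.Normal], F Γ → F (Γ ⧸ N))
    (hF : ∀ (Γ : Type u) [Group Γ] [Finite Γ], F Γ → ∀ (V : Subgroup Γ) [V.Normal],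
      Cfsg.IsElementaryAbelian p V → Cfsg.IsPStableOn p V)
    {G : Type u} [Group G] [Finite G]
    (hloc : ∀ P : Subgroup G, IsPGroup p P → P ≠ ⊥ → F ↥(Subgroup.normalizer (P : Set G))) :
    Cfsg.IsNormalizerPStable p G := by
  intro P hP g hg hq
  by_cases hbot : P = ⊥
  · subst hbot
    have : (QuotientGroup.mk (s := (Subgroup.centralizer ((⊥ : Subgroup G) : Set G)).subgroupOf
        (Subgroup.normalizer ((⊥ : Subgroup G) : Set G)))
          (⟨g, hg⟩ : ↥(Subgroup.normalizer ((⊥ : Subgroup G) : Set G)))) = 1 := by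
      rw [QuotientGroup.eq_one_iff, Subgroup.mem_subgroupOf, Subgroup.mem_centralizer_iff]
      intro x hx
      rw [SetLike.mem_coe, Subgroup.mem_bot] at hx
      rw [hx, one_mul, mul_one]
    rw [this]
    exact Subgroup.one_mem _
  set N := Subgroup.normalizer (P : Set G) with hN
  have hq' : ⁅⁅P.subgroupOf N, Subgroup.zpowers (⟨g, hg⟩ : ↥N)⁆,
      Subgroup.zpowers (⟨g, hg⟩ : ↥N)⁆ = ⊥ := by
    apply (Subgroup.map_eq_bot_iff_of_injective _ N.subtype_injective).mp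
    rw [Subgroup.map_commutator, Subgroup.map_commutator, MonoidHom.map_zpowers,
      Subgroup.subgroupOf_map_subtype, inf_of_le_left Subgroup.le_normalizer]
    exact hq
  have hPn : (P.subgroupOf N).Normal := Subgroup.normal_in_normalizer
  obtain ⟨E, hE, hgE, hEp⟩ := exists_normal_of_quadratic F hFq hF _ ↥N (P.subgroupOf N) rfl
    hP.comap_subtype (hloc P hP hbot) ⟨g, hg⟩ hq'
  have hcent : Subgroup.centralizer ((P.subgroupOf N : Subgroup ↥N) : Set ↥N) =
      (Subgroup.centralizer (P : Set G)).subgroupOf N := by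
    ext x
    rw [Subgroup.mem_subgroupOf, Subgroup.mem_centralizer_iff, Subgroup.mem_centralizer_iff]
    constructor
    · intro h y hy
      exact congrArg Subtype.val (h ⟨y, Subgroup.le_normalizer hy⟩ hy)
    · intro h y hy
      exact Subtype.ext (h y hy)
  rw [hcent] at hEp
  exact mk_mem_pCore_of_exists_normal _ E hE hgE hEp

end Cfsg.Agent.Lib.Helper14
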