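import Cfsg.Agent.Lib.Helper14.QuadConseq2
import Cfsg.Agent.Lib.Helper57.Qd1
import Cfsg.Agent.Lib.Helper31.ElemAb
import Cfsg.Agent.Lib.Helper3.PGroup
import Cfsg.Prelude.Def_LocalEven

set_option autoImplicit false
open scoped commutatorElement

namespace Cfsg.Agent.Lib.Helper14

open Matrix

section Abstract

variable {p : ℕ} [Fact p.Prime] {U : Type*} [CommGroup U]

/-- A quadratic automorphism of an abelian group. -/
def QuadAut (α : MulAut U) : Prop := ∀ u : U, α (α u * u⁻¹) = α u * u⁻¹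

theorem QuadAut.conj {α : MulAut U} (h : QuadAut α) (β : MulAut U) : QuadAut (β * α * β⁻¹) := by
  intro u
  have h1 := h (β⁻¹ u)
  simp only [MulAut.mul_apply]
  rw [map_mul β⁻¹, MulAut.inv_apply_self, map_inv, h1, map_mul, map_inv, MulAut.apply_inv_self]

/-- Baer–Suzuki, element form. -/
theorem exists_conj_not_isPGroup' {Δ : Type*} [Group Δ] [Finite Δ] (x : Δ)
    (hx : IsPGroup p (Subgroup.zpowers x)) (hn : x ∉ Cfsg.pCore p Δ) :
    ∃ g : Δ, ¬ IsPGroup p (Subgroup.closure {x, g * x * g⁻¹}) := by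
  by_contra hcon
  apply hn
  have hall : ∀ g : Δ, IsPGroup p
      ↥(Subgroup.zpowers x ⊔ (Subgroup.zpowers x).map (MulAut.conj g).toMonoidHom) := by
    intro g
    have h1 : IsPGroup p (Subgroup.closure {x, g * x * g⁻¹}) := by
      by_contra h
      exact hcon ⟨g, h⟩
    refine h1.to_le ?_
    rw [MonoidHom.map_zpowers, sup_le_iff, Subgroup.zpowers_le, Subgroup.zpowers_le]
    exact ⟨Subgroup.subset_closure (by simp),
      Subgroup.subset_closure (by simp [MulAut.conj_apply])⟩
  obtain ⟨N, hN, hNp, hle⟩ := Cfsg.Agent.S0199.result (Subgroup.zpowers x) hx hall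
  exact le_pCore hN hNp (hle (Subgroup.mem_zpowers x))

variable [Finite U]

theorem abstract_pair {Δ : Type*} [Group Δ] (hU : ∀ u : U, u ^ p = 1) (σ : Δ →* MulAut U)
    (hσ : Function.Injective σ) (X : Subgroup Δ) (x y : Δ) (hxX : x ∈ X) (hyX : y ∈ X)
    (hX : X = Subgroup.closure {x, y}) (hx : QuadAut (σ x)) (hy : QuadAut (σ y)) :
    IsPGroup p X ∨ ∃ (K : Type) (_ : Field K) (_ : Fintype K) (_ : CharP K p) (θ : K)
      (φ : ↥X →* SpecialLinearGroup (Fin 2) K), θ ≠ 0 ∧ φ ⟨x, hxX⟩ = slU θ ∧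
        φ ⟨y, hyX⟩ = slL 1 := by
  rcases quadratic_pair_dichotomy p hU (σ.comp X.subtype) ⟨x, hxX⟩ ⟨y, hyX⟩
    (closure_pair_subtype_eq_top hX hxX hyX) hx hy with ⟨L, hL⟩ | h
  · left
    intro g
    refine ⟨L, ?_⟩
    have h1 := hL g
    rw [← map_pow] at h1
    exact Subtype.ext (hσ (h1.trans (map_one σ).symm))
  · right
    exact h

/-- Faithful abstract form: a quadratic element outside `O_p` forces a section `SL₂(p)`. -/
theorem involves_SL2_of_quadAut (hD : DicksonLite p) {Δ : Type*} [Group Δ] [Finite Δ]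
    (hU : ∀ u : U, u ^ p = 1) (σ : Δ →* MulAut U) (hσ : Function.Injective σ) (x : Δ)
    (hx : QuadAut (σ x)) (hn : x ∉ Cfsg.pCore p Δ) :
    Cfsg.Involves (SpecialLinearGroup (Fin 2) (ZMod p)) Δ := by
  have hpx : IsPGroup p (Subgroup.zpowers x) := by
    have hX : Subgroup.zpowers x = Subgroup.closure {x, x} := by
      rw [Set.pair_eq_singleton, Subgroup.zpowers_eq_closure]
    rcases abstract_pair hU σ hσ (Subgroup.zpowers x) x x (Subgroup.mem_zpowers x)
      (Subgroup.mem_zpowers x) hX hx hx with h | h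
    · exact h
    · obtain ⟨K, _, _, _, θ, φ, hθ, hφa, hφb⟩ := h
      exfalso
      apply hθ
      have := hφa.symm.trans hφb
      have h2 := congrArg (fun m : SpecialLinearGroup (Fin 2) K =>
        (m : Matrix (Fin 2) (Fin 2) K) 0 1) this
      simpa using h2
  obtain ⟨g, hg⟩ := exists_conj_not_isPGroup' x hpx hn
  have hy : QuadAut (σ (g * x * g⁻¹)) := by
    rw [map_mul, map_mul, map_inv]
    exact hx.conj (σ g)
  rcases abstract_pair hU σ hσ (Subgroup.closure {x, g * x * g⁻¹}) x (g * x * g⁻¹)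
    (Subgroup.subset_closure (by simp)) (Subgroup.subset_closure (by simp)) rfl hx hy with h | h
  · exact absurd h hg
  · obtain ⟨K, _, _, _, θ, φ, hθ, hφa, hφb⟩ := h
    obtain ⟨K₀, hK₀, ⟨e⟩⟩ := hD K φ.range
      (one_lt_card_sylow_of_mem φ.range hθ ⟨_, hφa⟩ ⟨_, hφb⟩)
    obtain ⟨K₁, L₁, hL₁, -, e₁⟩ := involves_of_hom _ φ K₀ hK₀ e
    exact ⟨K₁, L₁, hL₁, e₁⟩

theorem involves_of_quotient {Γ : Type*} [Group Γ] {T : Type*} [Group T] (N : Subgroup Γ)
    [N.Normal] (h : Cfsg.Involves T (Γ ⧸ N)) : Cfsg.Involves T Γ :=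
  Helper57.Qd.involves_trans (K := (⊤ : Subgroup Γ))
    ((QuotientGroup.mk' N).comp (⊤ : Subgroup Γ).subtype)
    (fun y => by
      obtain ⟨x, rfl⟩ := QuotientGroup.mk'_surjective N y
      exact ⟨⟨x, Subgroup.mem_top x⟩, rfl⟩) h

/-- General abstract form: in an `SL₂(p)`-free group every quadratic element lies in `O_p` modulo
the kernel of the action. -/
theorem mk_mem_pCore_of_quadAut (hD : DicksonLite p) {Γ : Type*} [Group Γ] [Finite Γ]
    (hU : ∀ u : U, u ^ p = 1) (σ : Γ →* MulAut U) (a : Γ) (ha : QuadAut (σ a))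
    (hfree : ¬ Cfsg.Involves (SpecialLinearGroup (Fin 2) (ZMod p)) Γ) :
    (QuotientGroup.mk a : Γ ⧸ σ.ker) ∈ Cfsg.pCore p (Γ ⧸ σ.ker) := by
  by_contra hn
  apply hfree
  exact involves_of_quotient σ.ker (involves_SL2_of_quadAut hD hU (QuotientGroup.kerLift σ)
    (QuotientGroup.kerLift_injective σ) (QuotientGroup.mk a) (by
      rw [QuotientGroup.kerLift_mk]; exact ha) hn)

end Abstract

section PStable

variable {p : ℕ} [Fact p.Prime] {G : Type*} [Group G] [Finite G]

open scoped IsMulCommutative in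
theorem isPStableOn_of_not_involves (hD : DicksonLite p) (V : Subgroup G) [V.Normal]
    (hV : Cfsg.IsElementaryAbelian p V)
    (hfree : ¬ Cfsg.Involves (SpecialLinearGroup (Fin 2) (ZMod p)) G) : Cfsg.IsPStableOn p V := by
  intro a ha
  have hVc : IsMulCommutative ↥V := hV.1
  let σ : G →* MulAut ↥V := MulAut.conjNormal
  have hker : Subgroup.centralizer (V : Set G) = σ.ker := by
    ext g
    rw [Subgroup.mem_centralizer_iff, MonoidHom.mem_ker]
    constructor
    · intro h
      ext v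
      rw [MulAut.conjNormal_apply, MulAut.one_apply, ← h v v.2]
      group
    · intro h v hv
      have h1 := congrArg (fun f : MulAut ↥V => ((f ⟨v, hv⟩ : ↥V) : G)) h
      simp only [σ, MulAut.conjNormal_apply, MulAut.one_apply] at h1
      calc v * g = (g * v * g⁻¹) * g := by rw [h1]
        _ = g * v := by group
  have hq : QuadAut (σ a) := by
    intro u
    apply Subtype.ext
    rw [MulAut.conjNormal_apply, Subgroup.coe_mul, MulAut.conjNormal_apply]
    show a * (a * u * a⁻¹ * (u : G)⁻¹) * a⁻¹ = a * u * a⁻¹ * (u : G)⁻¹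
    have h1 : ⁅(u : G), a⁆ ∈ ⁅V, Subgroup.zpowers a⁆ :=
      Subgroup.commutator_mem_commutator u.2 (Subgroup.mem_zpowers a)
    have h2 : ⁅⁅(u : G), a⁆⁻¹, a⁆ ∈ ⁅⁅V, Subgroup.zpowers a⁆, Subgroup.zpowers a⁆ :=
      Subgroup.commutator_mem_commutator (Subgroup.inv_mem _ h1) (Subgroup.mem_zpowers a)
    rw [ha, Subgroup.mem_bot, commutatorElement_eq_one_iff_mul_comm] at h2
    have h3 : ⁅(u : G), a⁆⁻¹ = a * u * a⁻¹ * (u : G)⁻¹ := by
      rw [commutatorElement_def]; group
    rw [h3] at h2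
    rw [← h2]; group
  have key : ∀ (N : Subgroup G) [N.Normal], N = σ.ker →
      (QuotientGroup.mk a : G ⧸ N) ∈ Cfsg.pCore p (G ⧸ N) := by
    intro N _ hN
    subst hN
    exact mk_mem_pCore_of_quadAut hD (fun u => Subtype.ext (hV.2 u.1 u.2)) σ a hq hfree
  exact key _ hker

omit [Finite G] [Fact p.Prime] in
theorem isElementaryAbelian_omegaCenterThompson : 
    Cfsg.IsElementaryAbelian p (Cfsg.omegaCenterThompson p G) := by
  unfold Cfsg.omegaCenterThompson Cfsg.omegaOne
  apply Helper31.isElementaryAbelian_closure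
  · rintro x ⟨hx, -⟩ y ⟨hy, -⟩
    exact (Subgroup.mem_centralizer_iff.mp (Subgroup.mem_inf.mp hy).2 x
      (Subgroup.mem_inf.mp hx).1)
  · rintro x ⟨-, hx⟩
    exact hx

theorem isPStableOnSection_frattini_of_not_involves (hD : DicksonLite p)
    (hfree : ¬ Cfsg.Involves (SpecialLinearGroup (Fin 2) (ZMod p)) G) :
    Cfsg.IsPStableOnSection p (Cfsg.pCore p G)
      ((frattini ↥(Cfsg.pCore p G)).map (Cfsg.pCore p G).subtype) := by
  intro a ha
  set P := Cfsg.pCore p G with hP
  set N := (frattini ↥P).map P.subtype with hN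
  have hPp : IsPGroup p ↥P := isPGroup_pCore
  let π := QuotientGroup.mk' N
  have hπ : Function.Surjective π := QuotientGroup.mk'_surjective N
  have hVn : (P.map π).Normal := Subgroup.Normal.map inferInstance π hπ
  have hV : Cfsg.IsElementaryAbelian p (P.map π) := by
    rw [isElementaryAbelian_iff]
    constructor
    · rintro _ ⟨x, hx, rfl⟩ _ ⟨y, hy, rfl⟩
      rw [← map_mul, ← map_mul]
      apply (QuotientGroup.eq).mpr
      have h1 : ⁅(⟨y, hy⟩ : ↥P)⁻¹, (⟨x, hx⟩ : ↥P)⁻¹⁆ ∈ frattini ↥P :=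
        Helper3.commutator_le_frattini hPp
          (Subgroup.commutator_mem_commutator (Subgroup.mem_top _) (Subgroup.mem_top _))
      refine ⟨_, h1, ?_⟩
      simp only [commutatorElement_def, Subgroup.subtype_apply, Subgroup.coe_mul,
        InvMemClass.coe_inv, inv_inv]
      group
    · rintro _ ⟨x, hx, rfl⟩
      rw [← map_pow]
      apply (QuotientGroup.eq_one_iff _).mpr
      exact ⟨_, Helper3.pow_p_mem_frattini hPp ⟨x, hx⟩, rfl⟩
  have hfree' : ¬ Cfsg.Involves (SpecialLinearGroup (Fin 2) (ZMod p)) (G ⧸ N) :=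
    fun h => hfree (involves_of_quotient N h)
  have hst := isPStableOn_of_not_involves hD (P.map π) hV hfree'
  have hq : ⁅⁅P.map π, Subgroup.zpowers (π a)⁆, Subgroup.zpowers (π a)⁆ = ⊥ := by
    rw [← MonoidHom.map_zpowers, ← Subgroup.map_commutator, ← Subgroup.map_commutator, eq_bot_iff]
    refine (Subgroup.map_mono ha).trans ?_
    rw [QuotientGroup.map_mk'_self]
  have hmem := hst (π a) hq
  set C := Subgroup.centralizer ((P.map π : Subgroup (G ⧸ N)) : Set (G ⧸ N)) with hC
  let ψ : G →* (G ⧸ N) ⧸ C := (QuotientGroup.mk' C).comp π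
  have hψ : Function.Surjective ψ := (QuotientGroup.mk'_surjective C).comp hπ
  have hker : Cfsg.sectionKernel P N = (⊥ : Subgroup ((G ⧸ N) ⧸ C)).comap ψ := by
    rw [← Subgroup.comap_comap, MonoidHom.comap_bot, QuotientGroup.ker_mk']
    rfl
  refine ⟨(Cfsg.pCore p ((G ⧸ N) ⧸ C)).comap ψ, inferInstance, ?_, ?_, hmem⟩
  · rw [hker]
    exact Subgroup.comap_mono bot_le
  · rw [hker, Subgroup.relIndex_comap, Subgroup.map_comap_eq_self_of_surjective hψ,
      Subgroup.relIndex_bot_left]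
    exact IsPGroup.iff_card.mp isPGroup_pCore

theorem isActionPStable_of_not_involves (hD : DicksonLite p)
    (hfree : ¬ Cfsg.Involves (SpecialLinearGroup (Fin 2) (ZMod p)) G) :
    Cfsg.IsActionPStable p G := by
  refine ⟨fun V _ hV => isPStableOn_of_not_involves hD V hV hfree,
    isPStableOnSection_frattini_of_not_involves hD hfree, ?_⟩
  intro S V _ hVle
  apply isPStableOn_of_not_involves hD V
  · have h1 : Cfsg.IsElementaryAbelian p
        (V.map (Subgroup.normalizer (Cfsg.thompsonSubgroupOf p (S : Subgroup G) : Set G)).subtype) :=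
      IsElementaryAbelian.mono
        (IsElementaryAbelian.map isElementaryAbelian_omegaCenterThompson _) hVle
    have h2 := IsElementaryAbelian.comap_of_injective h1
      (Subgroup.normalizer (Cfsg.thompsonSubgroupOf p (S : Subgroup G) : Set G)).subtype
      (Subgroup.subtype_injective _)
    rwa [Subgroup.comap_map_eq_self_of_injective (Subgroup.subtype_injective _)] at h2
  · exact fun h => hfree (Helper57.Qd.involves_of_injective _ (Subgroup.subtype_injective _) h)

theorem not_involves_SL2_of_isPSolvable (hp : 5 ≤ p) (hsol : Cfsg.IsPSolvable p G) :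
    ¬ Cfsg.Involves (SpecialLinearGroup (Fin 2) (ZMod p)) G := by
  rintro ⟨K, L, hL, e⟩
  have h3 := eq_three_of_isPSolvable_of_involves (p := p) (by omega) (⊤ : Subgroup G)
    (Helper73.isPSolvable_subgroup hsol ⊤) ⟨K, L, hL, le_top, e⟩
  omega

theorem not_involves_SL2_of_abelian_sylow_two (hp : p ≠ 2)
    (hab : ∀ T : Sylow 2 G, IsMulCommutative T) :
    ¬ Cfsg.Involves (SpecialLinearGroup (Fin 2) (ZMod p)) G := by
  rintro ⟨K, L, hL, e⟩
  obtain ⟨T'⟩ : Nonempty (Sylow 2 ↥(⊤ : Subgroup G)) := inferInstance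
  obtain ⟨T⟩ : Nonempty (Sylow 2 G) := inferInstance
  apply not_isMulCommutative_sylow_two_of_involves hp (⊤ : Subgroup G) ⟨K, L, hL, le_top, e⟩ T'
  refine ⟨⟨fun x y => ?_⟩⟩
  apply Subtype.ext
  apply Subtype.ext
  exact commute_of_mem_of_isMulCommutative_sylow T (hab T)
    (T'.2.map (⊤ : Subgroup G).subtype) (Subgroup.mem_map_of_mem _ x.2)
    (Subgroup.mem_map_of_mem _ y.2)

end PStable

end Cfsg.Agent.Lib.Helper14
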