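import Cfsg.Agent.Lib.Helper14.QuadPairGroup
import Cfsg.Agent.Lib.Helper14.PSeries
import Cfsg.Agent.Lib.Helper73.PSolvSub

set_option autoImplicit false
open scoped commutatorElement

namespace Cfsg.Agent.Lib.Helper14

open Matrix

section General

variable {Γ : Type*} [Group Γ] [Finite Γ] {q : ℕ} [Fact q.Prime]

/-- If a Sylow `q`-subgroup is abelian then so is every `q`-subgroup. -/
theorem commute_of_mem_of_isMulCommutative_sylow (T : Sylow q Γ) (hT : IsMulCommutative T)
    {Q : Subgroup Γ} (hQ : IsPGroup q Q) {x y : Γ} (hx : x ∈ Q) (hy : y ∈ Q) : x * y = y * x := by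
  obtain ⟨P, hP⟩ := hQ.exists_le_sylow
  obtain ⟨g, rfl⟩ := MulAction.exists_smul_eq Γ T P
  have hx' := hP hx
  have hy' := hP hy
  rw [Sylow.coe_subgroup_smul, Subgroup.mem_pointwise_smul_iff_inv_smul_mem] at hx' hy'
  have h := congrArg Subtype.val (hT.is_comm.comm ⟨_, hx'⟩ ⟨_, hy'⟩)
  simp only [Subgroup.coe_mul, MulAut.smul_def, ← map_inv, MulAut.conj_apply, inv_inv] at h
  have h2 : g⁻¹ * (x * y) * g = g⁻¹ * (y * x) * g := by
    calc g⁻¹ * (x * y) * g = g⁻¹ * x * g * (g⁻¹ * y * g) := by group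
      _ = g⁻¹ * y * g * (g⁻¹ * x * g) := h
      _ = g⁻¹ * (y * x) * g := by group
  exact mul_left_cancel (mul_right_cancel h2)

/-- A `q`-subgroup of a homomorphic image is the image of a `q`-subgroup. -/
theorem exists_isPGroup_map_eq {T₀ : Type*} [Group T₀] (f : Γ →* T₀)
    (hf : Function.Surjective f) (Q' : Subgroup T₀) (hQ' : IsPGroup q Q') :
    ∃ Q : Subgroup Γ, IsPGroup q Q ∧ Q.map f = Q' := by
  have hs := f.subgroupComap_surjective_of_surjective Q' hf
  obtain ⟨P⟩ : Nonempty (Sylow q ↥(Q'.comap f)) := inferInstance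
  have h1 : ((P.mapSurjective hs : Sylow q ↥Q') : Subgroup ↥Q') = ⊤ :=
    ((P.mapSurjective hs).is_maximal' (hQ'.to_subgroup ⊤) le_top).symm
  rw [Sylow.coe_mapSurjective] at h1
  refine ⟨(P : Subgroup ↥(Q'.comap f)).map (Q'.comap f).subtype, P.2.map _, ?_⟩
  have h2 := congrArg (Subgroup.map Q'.subtype) h1
  rw [Subgroup.map_map, ← MonoidHom.range_eq_map, Subgroup.range_subtype] at h2
  rw [Subgroup.map_map]
  exact h2

end General

section Q8

variable {p : ℕ} [Fact p.Prime]

/-- `SL₂(p)`, `p` odd, has a non-abelian `2`-subgroup. -/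
theorem exists_nonabelian_two_subgroup_SL2 (hp : p ≠ 2) :
    ∃ (Q : Subgroup (SpecialLinearGroup (Fin 2) (ZMod p))) (i j : SpecialLinearGroup (Fin 2) (ZMod p)),
      IsPGroup 2 Q ∧ i ∈ Q ∧ j ∈ Q ∧ i * j ≠ j * i := by
  obtain ⟨a, b, hab⟩ := ZMod.sq_add_sq p (-1)
  have h2 : (2 : ZMod p) ≠ 0 := by
    intro h
    have h' : ((2 : ℕ) : ZMod p) = 0 := by exact_mod_cast h
    rw [ZMod.natCast_eq_zero_iff] at h'
    exact hp ((Nat.prime_dvd_prime_iff_eq Fact.out Nat.prime_two).mp h')
  let i : SpecialLinearGroup (Fin 2) (ZMod p) :=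
    Helper46.mk2 a b b (-a) (by linear_combination -hab)
  let j : SpecialLinearGroup (Fin 2) (ZMod p) := Helper46.mk2 0 1 (-1) 0 (by ring)
  have hi4 : i ^ (2 ^ 2) = 1 := by
    have h1 : i * i * (i * i) = 1 := by
      apply Helper46.ext2 <;>
        simp only [Helper46.mul_00, Helper46.mul_01, Helper46.mul_10, Helper46.mul_11, i,
          Helper46.mk2_00, Helper46.mk2_01, Helper46.mk2_10, Helper46.mk2_11, Helper46.one_00,
          Helper46.one_01, Helper46.one_10, Helper46.one_11]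
      · linear_combination (a ^ 2 + b ^ 2 - 1) * hab
      · ring
      · ring
      · linear_combination (a ^ 2 + b ^ 2 - 1) * hab
    calc i ^ (2 ^ 2) = i * i * (i * i) := by norm_num [pow_succ, mul_assoc]
      _ = 1 := h1
  have hj4 : j ^ (2 ^ 2) = 1 := by
    have h1 : j * j * (j * j) = 1 := by
      apply Helper46.ext2 <;>
        simp [Helper46.mul_00, Helper46.mul_01, Helper46.mul_10, Helper46.mul_11, j]
    calc j ^ (2 ^ 2) = j * j * (j * j) := by norm_num [pow_succ, mul_assoc]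
      _ = 1 := h1
  have hconj : j * i * j⁻¹ = i⁻¹ := by
    rw [mul_inv_eq_iff_eq_mul]
    apply Helper46.ext2 <;>
      simp [Helper46.mul_00, Helper46.mul_01, Helper46.mul_10, Helper46.mul_11, i, j,
        Helper46.inv_00, Helper46.inv_01, Helper46.inv_10, Helper46.inv_11]
  have hjn : j ∈ Subgroup.normalizer (Subgroup.zpowers i : Set (SpecialLinearGroup (Fin 2) (ZMod p))) := by
    apply mem_normalizer_of_map_conj_eq
    rw [MonoidHom.map_zpowers]
    show Subgroup.zpowers (j * i * j⁻¹) = _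
    rw [hconj, Subgroup.zpowers_inv]
  refine ⟨Subgroup.zpowers j ⊔ Subgroup.zpowers i, i, j, ?_, ?_, ?_, ?_⟩
  · exact IsPGroup.to_sup_of_normal_right' (isPGroup_zpowers_of_pow_eq_one hj4)
      (isPGroup_zpowers_of_pow_eq_one hi4) (by rw [Subgroup.zpowers_le]; exact hjn)
  · exact (le_sup_right : Subgroup.zpowers i ≤ _) (Subgroup.mem_zpowers i)
  · exact (le_sup_left : Subgroup.zpowers j ≤ _) (Subgroup.mem_zpowers j)
  · intro h
    have h00 := congrArg (fun m : SpecialLinearGroup (Fin 2) (ZMod p) =>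
      (m : Matrix (Fin 2) (Fin 2) (ZMod p)) 0 0) h
    have h01 := congrArg (fun m : SpecialLinearGroup (Fin 2) (ZMod p) =>
      (m : Matrix (Fin 2) (Fin 2) (ZMod p)) 0 1) h
    simp only [Helper46.mul_00, Helper46.mul_01, i, j, Helper46.mk2_00, Helper46.mk2_01,
      Helper46.mk2_10, Helper46.mk2_11] at h00 h01
    have hb : b = 0 := by
      have : 2 * b = 0 := by linear_combination -h00
      exact (mul_eq_zero.mp this).resolve_left h2
    have ha : a = 0 := by
      have : 2 * a = 0 := by linear_combination h01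
      exact (mul_eq_zero.mp this).resolve_left h2
    rw [ha, hb] at hab
    norm_num at hab

end Q8

section Conseq

variable {G : Type*} [Group G] [Finite G] {p : ℕ} [Fact p.Prime]

theorem not_isMulCommutative_sylow_two_of_involves (hp : p ≠ 2) (H : Subgroup G)
    (h : Involves H (SpecialLinearGroup (Fin 2) (ZMod p))) (T : Sylow 2 H) :
    ¬ IsMulCommutative T := by
  obtain ⟨K, L, hL, hKH, ⟨e⟩⟩ := h
  obtain ⟨Q', i, j, hQ', hi, hj, hij⟩ := exists_nonabelian_two_subgroup_SL2 hp
  let f : ↥K →* SpecialLinearGroup (Fin 2) (ZMod p) :=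
    e.toMonoidHom.comp (QuotientGroup.mk' (L.subgroupOf K))
  have hf : Function.Surjective f :=
    e.surjective.comp (QuotientGroup.mk'_surjective (L.subgroupOf K))
  obtain ⟨Q, hQ, hQm⟩ := exists_isPGroup_map_eq (q := 2) f hf Q' hQ'
  obtain ⟨s, hs, hsi⟩ : i ∈ Q.map f := hQm ▸ hi
  obtain ⟨t, ht, htj⟩ : j ∈ Q.map f := hQm ▸ hj
  intro hT
  have h1 := commute_of_mem_of_isMulCommutative_sylow T hT (hQ.map (Subgroup.inclusion hKH))
    (Subgroup.mem_map_of_mem _ hs) (Subgroup.mem_map_of_mem _ ht)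
  rw [← map_mul, ← map_mul] at h1
  have h2 := Subgroup.inclusion_injective hKH h1
  apply hij
  rw [← hsi, ← htj, ← map_mul, ← map_mul, h2]

omit [Finite G] [Fact p.Prime] in
theorem card_eq_pow_or_coprime_of_isSimpleGroup [IsSimpleGroup G] (h : Cfsg.IsPSolvable p G) :
    (∃ m : ℕ, Nat.card G = p ^ m) ∨ (Nat.card G).Coprime p := by
  obtain ⟨n, H, h0, hlast, -, hnorm, hfac⟩ := h
  have hex : ∃ i : Fin n, H i.castSucc = ⊥ ∧ H i.succ ≠ ⊥ := by
    by_contra hcon
    have hall : ∀ i : Fin (n + 1), H i = ⊥ := by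
      intro i
      induction i using Fin.induction with
      | zero => exact h0
      | succ i ih =>
        by_contra h
        exact hcon ⟨i, ih, h⟩
    rw [hall] at hlast
    exact bot_ne_top hlast
  obtain ⟨i, hi0, hi1⟩ := hex
  have hi2 : H i.succ = ⊤ := ((hnorm i.succ).eq_bot_or_eq_top).resolve_left hi1
  have := hfac i
  rwa [hi0, hi2, Subgroup.relIndex_top_right, Subgroup.index_bot] at this

theorem eq_three_of_isPSolvable_of_involves (hp : p ≠ 2) (H : Subgroup G)
    (hsol : Cfsg.IsPSolvable p H) (h : Involves H (SpecialLinearGroup (Fin 2) (ZMod p))) :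
    p = 3 := by
  by_contra hp3
  obtain ⟨K, L, hL, hKH, ⟨e⟩⟩ := h
  have hpp : p.Prime := Fact.out
  have hp5 : 5 ≤ p := by
    have h2 := hpp.two_le
    rcases Nat.lt_or_ge p 5 with h | h
    · interval_cases p
      · exact absurd rfl hp
      · exact absurd rfl hp3
      · exact absurd hpp (by norm_num)
    · exact h
  have h1 : Cfsg.IsPSolvable p ↥(K.subgroupOf H) := Helper73.isPSolvable_subgroup hsol _
  have h2 : Cfsg.IsPSolvable p ↥K :=
    IsPSolvable.of_surjective h1 (Subgroup.subgroupOfEquivOfLe hKH).toMonoidHom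
      (Subgroup.subgroupOfEquivOfLe hKH).surjective
  have h3 : Cfsg.IsPSolvable p (SpecialLinearGroup (Fin 2) (ZMod p)) :=
    IsPSolvable.of_surjective (IsPSolvable.quotient h2 (L.subgroupOf K)) e.toMonoidHom e.surjective
  have h4 : Cfsg.IsPSolvable p (ProjectiveSpecialLinearGroup (Fin 2) (ZMod p)) :=
    IsPSolvable.quotient h3 _
  have hsimple : IsSimpleGroup (ProjectiveSpecialLinearGroup (Fin 2) (ZMod p)) :=
    Matrix.ProjectiveSpecialLinearGroup.rank_two_simple (by rw [Nat.card_zmod]; omega)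
  have h20 : (2 : ZMod p) ≠ 0 := by
    intro h
    have h' : ((2 : ℕ) : ZMod p) = 0 := by exact_mod_cast h
    rw [ZMod.natCast_eq_zero_iff] at h'
    exact hp ((Nat.prime_dvd_prime_iff_eq Fact.out Nat.prime_two).mp h')
  rcases card_eq_pow_or_coprime_of_isSimpleGroup h4 with ⟨m, hm⟩ | hc
  · -- an involution in `PSL₂(p)`
    let j : SpecialLinearGroup (Fin 2) (ZMod p) := Helper46.mk2 0 1 (-1) 0 (by ring)
    let j' : ProjectiveSpecialLinearGroup (Fin 2) (ZMod p) := QuotientGroup.mk j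
    have hj1 : j' ≠ 1 := by
      intro h
      rw [QuotientGroup.eq_one_iff, Helper46.mem_center_iff2] at h
      simp [j] at h
    have hj2 : j' ^ 2 = 1 := by
      show (QuotientGroup.mk (j ^ 2) : ProjectiveSpecialLinearGroup (Fin 2) (ZMod p)) = 1
      rw [QuotientGroup.eq_one_iff, Helper46.mem_center_iff2, pow_two]
      simp [Helper46.mul_00, Helper46.mul_01, Helper46.mul_10, Helper46.mul_11, j]
    have hj3 : j' ^ (p ^ m) = 1 := by rw [← hm]; exact pow_card_eq_one'
    have hcop : Nat.Coprime 2 (p ^ m) :=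
      Nat.Coprime.pow_right m ((Nat.coprime_primes Nat.prime_two hpp).mpr (Ne.symm hp))
    apply hj1
    have := pow_gcd_eq_one.mpr ⟨hj2, hj3⟩
    rwa [hcop.gcd_eq_one, pow_one] at this
  · let u' : ProjectiveSpecialLinearGroup (Fin 2) (ZMod p) := QuotientGroup.mk (slU 1)
    have hu1 : u' ≠ 1 := by
      intro h
      rw [QuotientGroup.eq_one_iff, Helper46.mem_center_iff2] at h
      simp at h
    have hu2 : u' ^ p = 1 := by
      show (QuotientGroup.mk (slU 1 ^ p) : ProjectiveSpecialLinearGroup (Fin 2) (ZMod p)) = 1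
      rw [slU_pow_char p]; rfl
    have hord : orderOf u' = p := orderOf_eq_prime hu2 hu1
    have hdvd : p ∣ Nat.card (ProjectiveSpecialLinearGroup (Fin 2) (ZMod p)) := by
      have := orderOf_dvd_natCard u'
      rwa [hord] at this
    exact hpp.one_lt.ne' (Nat.eq_one_of_dvd_coprimes hc hdvd dvd_rfl)

end Conseq

end Cfsg.Agent.Lib.Helper14
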