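import Cfsg.Agent.Lib.Helper14.QuadConseq
import Cfsg.Agent.Lib.Helper14.PConstrained
import Cfsg.Agent.Lib.Helper31.PSolv

set_option autoImplicit false
open scoped commutatorElement

namespace Cfsg.Agent.Lib.Helper14

open Matrix

variable {G : Type*} [Group G] [Finite G] {p : ℕ} [Fact p.Prime]

theorem isPSolvable_of_isPGroup {Γ : Type*} [Group Γ] [Finite Γ] (h : IsPGroup p Γ) :
    Cfsg.IsPSolvable p Γ := by
  have : Group.IsNilpotent Γ := h.isNilpotent
  exact Helper31.isPSolvable_of_isSolvable p Γ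

/-- `Q⟨a⟩` is `p`-soluble for a `p'`-group `Q` normalised by the `p`-element `a`. -/
theorem isPSolvable_sup_zpowers (Q : Subgroup G) (a : G)
    (haQ : a ∈ Subgroup.normalizer (Q : Set G)) (hQ : (Nat.card Q).Coprime p)
    (hpa : IsPGroup p (Subgroup.zpowers a)) : Cfsg.IsPSolvable p ↥(Q ⊔ Subgroup.zpowers a) := by
  set H₁ := Q ⊔ Subgroup.zpowers a with hH₁
  have hQH : Q ≤ H₁ := le_sup_left
  have haH : Subgroup.zpowers a ≤ H₁ := le_sup_right
  have hnorm : H₁ ≤ Subgroup.normalizer (Q : Set G) :=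
    sup_le Subgroup.le_normalizer (by rw [Subgroup.zpowers_le]; exact haQ)
  have hN : (Q.subgroupOf H₁).Normal := Subgroup.normal_subgroupOf_of_le_normalizer hnorm
  have hcard : Nat.card (Q.subgroupOf H₁) = Nat.card Q :=
    Nat.card_congr (Subgroup.subgroupOfEquivOfLe hQH).toEquiv
  apply Helper31.isPSolvable_of_quotient p (Q.subgroupOf H₁) (Or.inr (by rw [hcard]; exact hQ))
  apply isPSolvable_of_isPGroup
  have htop : (⊤ : Subgroup ↥H₁) = Q.subgroupOf H₁ ⊔ (Subgroup.zpowers a).subgroupOf H₁ := by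
    rw [← Subgroup.subgroupOf_sup hQH haH, ← hH₁, Subgroup.subgroupOf_self]
  have h1 := congrArg (Subgroup.map (QuotientGroup.mk' (Q.subgroupOf H₁))) htop
  rw [Subgroup.map_sup, QuotientGroup.map_mk'_self, bot_sup_eq,
    Subgroup.map_top_of_surjective _ (QuotientGroup.mk'_surjective _)] at h1
  have h2 : IsPGroup p ↥((Subgroup.zpowers a).subgroupOf H₁) := hpa.comap_subtype
  have h3 := h2.map (QuotientGroup.mk' (Q.subgroupOf H₁))
  rw [← h1] at h3
  exact h3.of_equiv Subgroup.topEquiv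

/-- If the `p`-element `a` acts non-trivially on the `p'`-group `Q`, then `a ∉ O_p(Q⟨a⟩)`. -/
theorem not_mem_pCore_sup_zpowers (Q : Subgroup G) (a : G)
    (haQ : a ∈ Subgroup.normalizer (Q : Set G)) (hQ : (Nat.card Q).Coprime p)
    (hQa : ⁅Q, Subgroup.zpowers a⁆ ≠ ⊥) :
    a ∉ (Cfsg.pCore p ↥(Q ⊔ Subgroup.zpowers a)).map (Q ⊔ Subgroup.zpowers a).subtype := by
  set H₁ := Q ⊔ Subgroup.zpowers a with hH₁
  have hQH : Q ≤ H₁ := le_sup_left
  have haH : Subgroup.zpowers a ≤ H₁ := le_sup_right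
  have hnorm : H₁ ≤ Subgroup.normalizer (Q : Set G) :=
    sup_le Subgroup.le_normalizer (by rw [Subgroup.zpowers_le]; exact haQ)
  have hN : (Q.subgroupOf H₁).Normal := Subgroup.normal_subgroupOf_of_le_normalizer hnorm
  have hcard : Nat.card (Q.subgroupOf H₁) = Nat.card Q :=
    Nat.card_congr (Subgroup.subgroupOfEquivOfLe hQH).toEquiv
  have hPc := pCore_characteristic p ↥H₁
  rintro ⟨a', ha', haa'⟩
  apply hQa
  obtain ⟨k, hk⟩ := IsPGroup.iff_card.mp (isPGroup_pCore (p := p) (G := ↥H₁))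
  have hdisj : Disjoint (Q.subgroupOf H₁) (Cfsg.pCore p ↥H₁) :=
    Subgroup.disjoint_of_coprime_natCard (by rw [hcard, hk]; exact Nat.Coprime.pow_right k hQ)
  have hcomm := Subgroup.commutator_eq_bot_of_disjoint hdisj
  rw [eq_bot_iff, Subgroup.commutator_le]
  intro q hq z hz
  obtain ⟨n, rfl⟩ := Subgroup.mem_zpowers_iff.mp hz
  have h1 : ⁅(⟨q, hQH hq⟩ : ↥H₁), a' ^ n⁆ ∈ ⁅Q.subgroupOf H₁, Cfsg.pCore p ↥H₁⁆ :=
    Subgroup.commutator_mem_commutator (Subgroup.mem_subgroupOf.mpr hq)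
      (Subgroup.zpow_mem _ ha' n)
  rw [hcomm, Subgroup.mem_bot] at h1
  have h2 := congrArg Subtype.val h1
  rw [Subgroup.mem_bot]
  have haa'' : (a' : G) = a := haa'
  simpa [commutatorElement_def, haa''] using h2

end Cfsg.Agent.Lib.Helper14
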