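import Cfsg.Agent.Lib.Helper14.QuadPair
import Cfsg.Agent.Lib.Helper14.Thompson
import Cfsg.Agent.Lib.Helper14.Cores
import Cfsg.Agent.Lib.Helper14.Conj
import Cfsg.Agent.S0199

set_option autoImplicit false
open scoped commutatorElement

namespace Cfsg.Agent.Lib.Helper14

open Matrix

variable {G : Type*} [Group G]

theorem closure_pair_subtype_eq_top {H : Subgroup G} {a b : G} (hH : H = Subgroup.closure {a, b})
    (ha : a ∈ H) (hb : b ∈ H) : Subgroup.closure {(⟨a, ha⟩ : ↥H), ⟨b, hb⟩} = ⊤ := by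
  apply Subgroup.map_injective H.subtype_injective
  rw [MonoidHom.map_closure, ← MonoidHom.range_eq_map, Subgroup.range_subtype]
  have : (H.subtype '' {(⟨a, ha⟩ : ↥H), ⟨b, hb⟩} : Set G) = {a, b} := by simp [Set.image_pair]
  rw [this, ← hH]

/-- A section of `X` isomorphic to `T`. -/
def Involves (X : Subgroup G) (T : Type*) [Group T] : Prop :=
  ∃ (K L : Subgroup G) (_hL : (L.subgroupOf K).Normal), K ≤ X ∧
    Nonempty ((↥K ⧸ L.subgroupOf K) ≃* T)

theorem Involves.mono {X Y : Subgroup G} {T : Type*} [Group T] (h : Involves X T) (hXY : X ≤ Y) :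
    Involves Y T := by
  obtain ⟨K, L, hL, hK, e⟩ := h
  exact ⟨K, L, hL, hK.trans hXY, e⟩

theorem involves_of_hom {S T : Type*} [Group S] [Group T] (X : Subgroup G) (φ : ↥X →* S)
    (K₀ : Subgroup S) (hK₀ : K₀ ≤ φ.range) (e : ↥K₀ ≃* T) : Involves X T := by
  let K : Subgroup G := (K₀.comap φ).map X.subtype
  let L : Subgroup G := φ.ker.map X.subtype
  have hKX : K ≤ X := Subgroup.map_subtype_le _
  have hmem : ∀ k : ↥K, φ ⟨k.1, hKX k.2⟩ ∈ K₀ := by
    rintro ⟨k, hk⟩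
    obtain ⟨k', hk', rfl⟩ := hk
    exact hk'
  let ψ : ↥K →* ↥K₀ :=
    { toFun := fun k => ⟨φ ⟨k.1, hKX k.2⟩, hmem k⟩
      map_one' := by
        apply Subtype.ext
        exact map_one φ
      map_mul' := fun k l => by
        apply Subtype.ext
        exact map_mul φ ⟨k.1, hKX k.2⟩ ⟨l.1, hKX l.2⟩ }
  have hsurj : Function.Surjective ψ := by
    rintro ⟨s, hs⟩
    obtain ⟨g, rfl⟩ := hK₀ hs
    exact ⟨⟨g.1, ⟨g, hs, rfl⟩⟩, rfl⟩
  have hker : L.subgroupOf K = ψ.ker := by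
    ext k
    rw [Subgroup.mem_subgroupOf, MonoidHom.mem_ker]
    constructor
    · rintro ⟨l, hl, hlk⟩
      apply Subtype.ext
      have : l = ⟨k.1, hKX k.2⟩ := Subtype.ext hlk
      show φ ⟨k.1, hKX k.2⟩ = 1
      rw [← this]
      exact hl
    · intro hk
      exact ⟨⟨k.1, hKX k.2⟩, congrArg Subtype.val hk, rfl⟩
  have hL : (L.subgroupOf K).Normal := hker ▸ MonoidHom.normal_ker ψ
  exact ⟨K, L, hL, hKX, ⟨(QuotientGroup.quotientMulEquivOfEq hker).trans
    ((QuotientGroup.quotientKerEquivOfSurjective ψ hsurj).trans e)⟩⟩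

/-- The statement of Dickson's theorem (`S0274`) used as a black box. -/
def DicksonLite (p : ℕ) [Fact p.Prime] : Prop :=
  ∀ (F : Type) [Field F] [Fintype F] [CharP F p] (H : Subgroup (SpecialLinearGroup (Fin 2) F)),
    1 < Nat.card (Sylow p H) →
      ∃ K : Subgroup (SpecialLinearGroup (Fin 2) F), K ≤ H ∧
        Nonempty (K ≃* SpecialLinearGroup (Fin 2) (ZMod p))

theorem one_lt_card_sylow_of_mem {p : ℕ} [Fact p.Prime] {K : Type*} [Field K] [Finite K]
    [CharP K p] (R : Subgroup (SpecialLinearGroup (Fin 2) K)) {θ : K} (hθ : θ ≠ 0)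
    (hU : slU θ ∈ R) (hL : slL 1 ∈ R) : 1 < Nat.card (Sylow p R) := by
  have : Finite (SpecialLinearGroup (Fin 2) K) :=
    inferInstanceAs (Finite {A : Matrix (Fin 2) (Fin 2) K // A.det = 1})
  rw [Finite.one_lt_card_iff_nontrivial]
  by_contra h
  rw [not_nontrivial_iff_subsingleton] at h
  have h1 : IsPGroup p (Subgroup.zpowers (⟨slU θ, hU⟩ : ↥R)) :=
    IsElementaryAbelian.isPGroup (isElementaryAbelian_zpowers (p := p)
      (x := (⟨slU θ, hU⟩ : ↥R)) (Subtype.ext (slU_pow_char p θ)))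
  have h2 : IsPGroup p (Subgroup.zpowers (⟨slL 1, hL⟩ : ↥R)) :=
    IsElementaryAbelian.isPGroup (isElementaryAbelian_zpowers (p := p)
      (x := (⟨slL 1, hL⟩ : ↥R)) (Subtype.ext (slL_pow_char p 1)))
  obtain ⟨P, hP⟩ := h1.exists_le_sylow
  obtain ⟨Q, hQ⟩ := h2.exists_le_sylow
  have hPQ : Q = P := Subsingleton.elim _ _
  rw [hPQ] at hQ
  have hmem : (⟨slU θ, hU⟩ : ↥R) * ⟨slL 1, hL⟩ ∈ (P : Subgroup ↥R) :=
    P.mul_mem (hP (Subgroup.mem_zpowers _)) (hQ (Subgroup.mem_zpowers _))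
  obtain ⟨n, hn⟩ := P.2 ⟨_, hmem⟩
  have h3 := congrArg (fun z : ↥(P : Subgroup ↥R) => ((z : ↥R) : SpecialLinearGroup (Fin 2) K)) hn
  simp only [SubmonoidClass.coe_pow, OneMemClass.coe_one, Subgroup.coe_mul] at h3
  exact not_pow_char_pow_eq_one p hθ n h3

section Pair

variable [Finite G] {p : ℕ} [Fact p.Prime]

open scoped IsMulCommutative in
/-- Group form of the dichotomy for quadratic pairs. -/
theorem quadratic_pair_group (V X : Subgroup G) (hV : Cfsg.IsElementaryAbelian p V)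
    (hXV : X ≤ Subgroup.normalizer (V : Set G))
    (hf : X ⊓ Subgroup.centralizer (V : Set G) = ⊥) (a b : G) (haX : a ∈ X) (hbX : b ∈ X)
    (hX : X = Subgroup.closure {a, b})
    (ha : ⁅⁅V, Subgroup.zpowers a⁆, Subgroup.zpowers a⁆ = ⊥)
    (hb : ⁅⁅V, Subgroup.zpowers b⁆, Subgroup.zpowers b⁆ = ⊥) :
    IsPGroup p X ∨ ∃ (K : Type) (_ : Field K) (_ : Fintype K) (_ : CharP K p) (θ : K)
      (φ : ↥X →* SpecialLinearGroup (Fin 2) K), θ ≠ 0 ∧ φ ⟨a, haX⟩ = slU θ ∧
        φ ⟨b, hbX⟩ = slL 1 := by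
  have hVc : IsMulCommutative ↥V := hV.1
  let σ : ↥X →* MulAut ↥V := (Subgroup.normalizerMonoidHom V).comp (Subgroup.inclusion hXV)
  have hσ : ∀ (g : ↥X) (v : ↥V), ((σ g v : ↥V) : G) = g * v * (g : G)⁻¹ := fun g v => rfl
  have hq : ∀ (c : G) (hc : c ∈ X), ⁅⁅V, Subgroup.zpowers c⁆, Subgroup.zpowers c⁆ = ⊥ →
      ∀ u : ↥V, σ ⟨c, hc⟩ (σ ⟨c, hc⟩ u * u⁻¹) = σ ⟨c, hc⟩ u * u⁻¹ := by
    intro c hc hcq u
    apply Subtype.ext
    rw [hσ, Subgroup.coe_mul, hσ]
    show c * (c * u * c⁻¹ * (u : G)⁻¹) * c⁻¹ = c * u * c⁻¹ * (u : G)⁻¹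
    have h1 : ⁅(u : G), c⁆ ∈ ⁅V, Subgroup.zpowers c⁆ :=
      Subgroup.commutator_mem_commutator u.2 (Subgroup.mem_zpowers c)
    have h2 : ⁅⁅(u : G), c⁆⁻¹, c⁆ ∈ ⁅⁅V, Subgroup.zpowers c⁆, Subgroup.zpowers c⁆ :=
      Subgroup.commutator_mem_commutator (Subgroup.inv_mem _ h1) (Subgroup.mem_zpowers c)
    rw [hcq, Subgroup.mem_bot, commutatorElement_eq_one_iff_mul_comm] at h2
    have h3 : ⁅(u : G), c⁆⁻¹ = c * u * c⁻¹ * (u : G)⁻¹ := by
      rw [commutatorElement_def]; group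
    rw [h3] at h2
    rw [← h2]; group
  rcases quadratic_pair_dichotomy p (U := ↥V) (fun u => Subtype.ext (hV.2 u.1 u.2)) σ
    ⟨a, haX⟩ ⟨b, hbX⟩ (closure_pair_subtype_eq_top hX haX hbX) (hq a haX ha) (hq b hbX hb)
    with ⟨L, hL⟩ | h
  · left
    intro g
    refine ⟨L, ?_⟩
    have h1 := hL g
    rw [← map_pow] at h1
    have h2 : ((g ^ p ^ L : ↥X) : G) ∈ X ⊓ Subgroup.centralizer (V : Set G) := by
      refine Subgroup.mem_inf.mpr ⟨(g ^ p ^ L).2, ?_⟩
      rw [Subgroup.mem_centralizer_iff]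
      intro v hv
      have h3 := congrArg (fun f : MulAut ↥V => ((f ⟨v, hv⟩ : ↥V) : G)) h1
      simp only [hσ, MulAut.one_apply] at h3
      calc v * ((g ^ p ^ L : ↥X) : G)
          = (((g ^ p ^ L : ↥X) : G) * v * ((g ^ p ^ L : ↥X) : G)⁻¹) * ((g ^ p ^ L : ↥X) : G) := by
            rw [h3]
        _ = ((g ^ p ^ L : ↥X) : G) * v := by group
    rw [hf, Subgroup.mem_bot] at h2
    exact Subtype.ext h2
  · right
    exact h

theorem involves_SL2_of_quadratic_pair (hD : DicksonLite p) (V X : Subgroup G)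
    (hV : Cfsg.IsElementaryAbelian p V) (hXV : X ≤ Subgroup.normalizer (V : Set G))
    (hf : X ⊓ Subgroup.centralizer (V : Set G) = ⊥) (a b : G)
    (hX : X = Subgroup.closure {a, b})
    (ha : ⁅⁅V, Subgroup.zpowers a⁆, Subgroup.zpowers a⁆ = ⊥)
    (hb : ⁅⁅V, Subgroup.zpowers b⁆, Subgroup.zpowers b⁆ = ⊥) (hnp : ¬ IsPGroup p X) :
    Involves X (SpecialLinearGroup (Fin 2) (ZMod p)) := by
  have haX : a ∈ X := hX ▸ Subgroup.subset_closure (by simp)
  have hbX : b ∈ X := hX ▸ Subgroup.subset_closure (by simp)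
  rcases quadratic_pair_group V X hV hXV hf a b haX hbX hX ha hb with h | h
  · exact absurd h hnp
  · obtain ⟨K, _, _, _, θ, φ, hθ, hφa, hφb⟩ := h
    obtain ⟨K₀, hK₀, ⟨e⟩⟩ := hD K φ.range
      (one_lt_card_sylow_of_mem φ.range hθ ⟨_, hφa⟩ ⟨_, hφb⟩)
    exact involves_of_hom X φ K₀ hK₀ e

/-- A quadratically acting element of a faithful group is a `p`-element. -/
theorem isPGroup_zpowers_of_quadratic (V : Subgroup G) (hV : Cfsg.IsElementaryAbelian p V)
    (a : G) (haV : a ∈ Subgroup.normalizer (V : Set G))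
    (hf : Subgroup.zpowers a ⊓ Subgroup.centralizer (V : Set G) = ⊥)
    (ha : ⁅⁅V, Subgroup.zpowers a⁆, Subgroup.zpowers a⁆ = ⊥) :
    IsPGroup p (Subgroup.zpowers a) := by
  have hX : Subgroup.zpowers a = Subgroup.closure {a, a} := by
    rw [Set.pair_eq_singleton, Subgroup.zpowers_eq_closure]
  rcases quadratic_pair_group V (Subgroup.zpowers a) hV
    (by rw [Subgroup.zpowers_le]; exact haV) hf a a (Subgroup.mem_zpowers a)
    (Subgroup.mem_zpowers a) hX ha ha with h | h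
  · exact h
  · obtain ⟨K, _, _, _, θ, φ, hθ, hφa, hφb⟩ := h
    exfalso
    apply hθ
    have := hφa.symm.trans hφb
    have h2 := congrArg (fun m : SpecialLinearGroup (Fin 2) K =>
      (m : Matrix (Fin 2) (Fin 2) K) 0 1) this
    simpa using h2

theorem isPGroup_zpowers_of_pow_eq_one {G' : Type*} [Group G'] {x : G'} {n : ℕ}
    (h : x ^ (p ^ n) = 1) : IsPGroup p (Subgroup.zpowers x) := by
  rintro ⟨y, hy⟩
  obtain ⟨k, rfl⟩ := Subgroup.mem_zpowers_iff.mp hy
  refine ⟨n, Subtype.ext ?_⟩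
  show (x ^ k) ^ (p ^ n) = 1
  rw [← zpow_natCast, ← _root_.zpow_mul, mul_comm, _root_.zpow_mul, zpow_natCast, h, _root_.one_zpow]

omit [Finite G] in
theorem quadratic_conj (V : Subgroup G) {a g : G} (hg : g ∈ Subgroup.normalizer (V : Set G))
    (ha : ⁅⁅V, Subgroup.zpowers a⁆, Subgroup.zpowers a⁆ = ⊥) :
    ⁅⁅V, Subgroup.zpowers (g * a * g⁻¹)⁆, Subgroup.zpowers (g * a * g⁻¹)⁆ = ⊥ := by
  have h1 := congrArg (Subgroup.map (MulAut.conj g).toMonoidHom) ha
  rw [Subgroup.map_commutator, Subgroup.map_commutator, map_conj_of_mem_normalizer hg,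
    MonoidHom.map_zpowers, Subgroup.map_bot] at h1
  exact h1

/-- Baer–Suzuki for a quadratic element outside `O_p(H)`: some conjugate generates with it a
subgroup which is not a `p`-group. -/
theorem exists_conj_not_isPGroup (V H : Subgroup G)
    (hV : Cfsg.IsElementaryAbelian p V) (hHV : H ≤ Subgroup.normalizer (V : Set G))
    (hf : H ⊓ Subgroup.centralizer (V : Set G) = ⊥) (a : G) (haH : a ∈ H)
    (hq : ⁅⁅V, Subgroup.zpowers a⁆, Subgroup.zpowers a⁆ = ⊥)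
    (hna : a ∉ (Cfsg.pCore p H).map H.subtype) :
    ∃ g ∈ H, ¬ IsPGroup p (Subgroup.closure {a, g * a * g⁻¹}) := by
  have hza : Subgroup.zpowers a ≤ H := by rw [Subgroup.zpowers_le]; exact haH
  have hpa : IsPGroup p (Subgroup.zpowers a) :=
    isPGroup_zpowers_of_quadratic V hV a (hHV haH)
      (le_bot_iff.mp (hf ▸ inf_le_inf_right _ hza)) hq
  obtain ⟨n, hn⟩ := hpa ⟨a, Subgroup.mem_zpowers a⟩
  have hn' : a ^ (p ^ n) = 1 := congrArg Subtype.val hn
  let a' : ↥H := ⟨a, haH⟩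
  have hpa' : IsPGroup p (Subgroup.zpowers a') :=
    isPGroup_zpowers_of_pow_eq_one (n := n) (Subtype.ext hn')
  by_contra hcon
  apply hna
  have hall : ∀ g : ↥H, IsPGroup p
      ↥(Subgroup.zpowers a' ⊔ (Subgroup.zpowers a').map (MulAut.conj g).toMonoidHom) := by
    intro g
    have h1 : IsPGroup p (Subgroup.closure {a, (g : G) * a * (g : G)⁻¹}) := by
      by_contra h
      exact hcon ⟨g, g.2, h⟩
    have h2 : Subgroup.zpowers a' ⊔ (Subgroup.zpowers a').map (MulAut.conj g).toMonoidHom ≤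
        (Subgroup.closure {a, (g : G) * a * (g : G)⁻¹}).subgroupOf H := by
      rw [MonoidHom.map_zpowers, sup_le_iff, Subgroup.zpowers_le, Subgroup.zpowers_le]
      constructor
      · rw [Subgroup.mem_subgroupOf]
        exact Subgroup.subset_closure (by simp [a'])
      · rw [Subgroup.mem_subgroupOf]
        exact Subgroup.subset_closure (by simp [a', MulAut.conj_apply])
    exact (h1.comap_subtype).to_le h2
  obtain ⟨N, hN, hNp, hle⟩ := Cfsg.Agent.S0199.result (Subgroup.zpowers a') hpa' hall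
  exact ⟨a', le_pCore hN hNp (hle (Subgroup.mem_zpowers a')), rfl⟩

theorem involves_SL2_of_quadratic_not_mem_pCore (hD : DicksonLite p) (V H : Subgroup G)
    (hV : Cfsg.IsElementaryAbelian p V) (hHV : H ≤ Subgroup.normalizer (V : Set G))
    (hf : H ⊓ Subgroup.centralizer (V : Set G) = ⊥) (a : G) (haH : a ∈ H)
    (hq : ⁅⁅V, Subgroup.zpowers a⁆, Subgroup.zpowers a⁆ = ⊥)
    (hna : a ∉ (Cfsg.pCore p H).map H.subtype) :
    Involves H (SpecialLinearGroup (Fin 2) (ZMod p)) := by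
  obtain ⟨g, hg, hnp⟩ := exists_conj_not_isPGroup V H hV hHV hf a haH hq hna
  have hXH : Subgroup.closure {a, g * a * g⁻¹} ≤ H := by
    rw [Subgroup.closure_le]
    rintro _ (rfl | rfl)
    · exact haH
    · exact H.mul_mem (H.mul_mem hg haH) (H.inv_mem hg)
  exact (involves_SL2_of_quadratic_pair hD V _ hV (hXH.trans hHV)
    (le_bot_iff.mp (hf ▸ inf_le_inf_right _ hXH)) a (g * a * g⁻¹) rfl hq
    (quadratic_conj V (hHV hg) hq) hnp).mono hXH

end Pair

end Cfsg.Agent.Lib.Helper14
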