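import Mathlib

set_option autoImplicit false

namespace Cfsg.Agent.Lib.Helper52.S3C

open Equiv Equiv.Perm Subgroup MulAction

/-- [CEN] a perfect group centralizing a 3-cycle fixes its support pointwise. -/
theorem cen {α : Type*} [Fintype α] [DecidableEq α] (K : Subgroup (Perm α))
    (hK : Group.IsPerfect ↥K) (c : Perm α) (hc : c.IsThreeCycle)
    (hcK : c ∈ centralizer (K : Set (Perm α))) (x : α) (hx : c x ≠ x) :
    ∀ k ∈ K, k x = x := by
  have hcomm : ∀ k ∈ K, ∀ i : ℤ, ∀ y, k ((c ^ i) y) = (c ^ i) (k y) := by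
    intro k hk i y
    have h1 : Commute k c := mem_centralizer_iff.mp hcK k hk
    exact congrArg (fun f : Perm α => f y) (h1.zpow_right i).eq
  have hex : ∀ k ∈ K, ∃ i : ℤ, ∀ m : ℤ, k ((c ^ m) x) = (c ^ (m + i)) x := by
    intro k hk
    have h1 : c (k x) ≠ k x := by
      intro h
      have h2 := hcomm k hk 1 x
      rw [zpow_one, h] at h2
      exact hx (k.injective h2)
    obtain ⟨i, hi⟩ := hc.isCycle.sameCycle hx h1
    refine ⟨i, fun m => ?_⟩
    rw [hcomm k hk, ← hi, ← Perm.mul_apply, ← zpow_add]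
  have hinv : ∀ (k : Perm α) (i : ℤ), (∀ m : ℤ, k ((c ^ m) x) = (c ^ (m + i)) x) →
      ∀ m : ℤ, k⁻¹ ((c ^ m) x) = (c ^ (m - i)) x := by
    intro k i h m
    rw [Perm.inv_eq_iff_eq, h, sub_add_cancel]
  have hle : commutator ↥K ≤ stabilizer ↥K x := by
    rw [commutator_def, commutator_le]
    intro g₁ _ g₂ _
    rw [mem_stabilizer_iff]
    obtain ⟨i, hi⟩ := hex g₁ g₁.2
    obtain ⟨j, hj⟩ := hex g₂ g₂.2
    have hi' := hinv _ _ hi
    have hj' := hinv _ _ hj
    change (g₁ : Perm α) ((g₂ : Perm α) ((g₁ : Perm α)⁻¹ ((g₂ : Perm α)⁻¹ x))) = x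
    have h0 : x = (c ^ (0 : ℤ)) x := by simp
    conv_lhs => rw [h0]
    rw [hj', hi', hj, hi]
    have : (0 : ℤ) - j - i + j + i = 0 := by ring
    rw [this]
    simp
  intro k hk
  have h1 : (⟨k, hk⟩ : ↥K) ∈ commutator ↥K := by
    rw [Group.isPerfect_def.mp hK]; exact mem_top _
  exact mem_stabilizer_iff.mp (hle h1)

end Cfsg.Agent.Lib.Helper52.S3C
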