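import Mathlib

set_option autoImplicit false

namespace Cfsg.Agent.Lib.Helper52.S3C

open Equiv Equiv.Perm Subgroup MulAction
open scoped Pointwise

/-- [PRIM] a transitive group generated by 3-cycles is the alternating group. -/
theorem prim {β : Type*} [Fintype β] [DecidableEq β] (G : Subgroup (Perm β)) (T : Set (Perm β))
    (hT : ∀ g ∈ T, g.IsThreeCycle) (hne : T.Nonempty) (hG : G = closure T)
    (htr : IsPretransitive G β) : G = alternatingGroup β := by
  apply le_antisymm
  · rw [hG, closure_le]
    intro g hg
    exact (hT g hg).mem_alternatingGroup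
  · obtain ⟨t, ht⟩ := hne
    have htG : t ∈ G := by rw [hG]; exact subset_closure ht
    refine alternatingGroup_le_of_isPreprimitive_of_isThreeCycle_mem ?_ (hT t ht) htG
    refine { htr with isTrivialBlock_of_isBlock := ?_ }
    intro B hB
    by_cases hs : B.Subsingleton
    · exact Or.inl hs
    right
    rw [Set.not_subsingleton_iff] at hs
    obtain ⟨a, ha, b, hb, hab⟩ := hs
    have key : ∀ g ∈ T, g ∈ stabilizer (Perm β) B := by
      intro g hg
      have hgG : g ∈ G := by rw [hG]; exact subset_closure hg
      rw [mem_stabilizer_iff]
      rcases (isBlock_iff_smul_eq_or_disjoint.mp hB) ⟨g, hgG⟩ with h | hdis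
      · exact h
      · exfalso
        have hm : ∀ z ∈ B, g z ∉ B := fun z hz hgz =>
          Set.disjoint_left.mp hdis (Set.smul_mem_smul_set (a := (⟨g, hgG⟩ : G)) hz) hgz
        have hsub : ({a, b, g a, g b} : Finset β) ⊆ g.support := by
          intro z hz
          simp only [Finset.mem_insert, Finset.mem_singleton] at hz
          rw [mem_support]
          rcases hz with rfl | rfl | rfl | rfl
          · intro h; exact hm _ ha (h.symm ▸ ha)
          · intro h; exact hm _ hb (h.symm ▸ hb)
          · intro h; exact hm _ ha ((g.injective h).symm ▸ ha)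
          · intro h; exact hm _ hb ((g.injective h).symm ▸ hb)
        have h1 : a ≠ g a := fun h => hm _ ha (h ▸ ha)
        have h2 : a ≠ g b := fun h => hm _ hb (h ▸ ha)
        have h3 : b ≠ g a := fun h => hm _ ha (h ▸ hb)
        have h4 : b ≠ g b := fun h => hm _ hb (h ▸ hb)
        have h5 : g a ≠ g b := fun h => hab (g.injective h)
        have hcard : ({a, b, g a, g b} : Finset β).card = 4 := by
          rw [Finset.card_insert_of_notMem (by simp [hab, h1, h2]),
            Finset.card_insert_of_notMem (by simp [h3, h4]), Finset.card_pair h5]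
        have := Finset.card_le_card hsub
        rw [hcard, (hT g hg).card_support] at this
        omega
    have hle : G ≤ stabilizer (Perm β) B := by rw [hG, closure_le]; exact key
    rw [Set.eq_univ_iff_forall]
    intro z
    obtain ⟨g, hg⟩ := htr.exists_smul_eq a z
    have h1 := hle g.2
    rw [mem_stabilizer_iff] at h1
    rw [← h1, ← hg]
    exact Set.smul_mem_smul_set (a := (g : Perm β)) ha

end Cfsg.Agent.Lib.Helper52.S3C
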