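import Mathlib
import Cfsg.Agent.Lib.Helper27.Quasisimple

set_option autoImplicit false

namespace Cfsg.Agent.Lib.Helper52.S3C

open Equiv Equiv.Perm Subgroup MulAction
open scoped commutatorElement

theorem qs_perfect {X : Type*} [Group X] (K : Subgroup X) (hK : Group.IsPerfect ↥K) :
    ⁅K, K⁆ = K := by
  have h1 := Group.isPerfect_def.mp hK
  rw [_root_.commutator_def] at h1
  have h2 := congrArg (Subgroup.map K.subtype) h1
  rwa [Subgroup.map_commutator, ← MonoidHom.range_eq_map, Subgroup.range_subtype] at h2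

/-- `K` normalizes `⟨c^K⟩`. -/
theorem qs_conj_mem {X : Type*} [Group X] (K : Subgroup X) (c : X) {k g : X} (hk : k ∈ K)
    (hg : g ∈ closure {g | ∃ k ∈ K, g = k * c * k⁻¹}) :
    k * g * k⁻¹ ∈ closure {g | ∃ k ∈ K, g = k * c * k⁻¹} := by
  induction hg using closure_induction with
  | mem g hg =>
    obtain ⟨l, hl, rfl⟩ := hg
    exact subset_closure ⟨k * l, K.mul_mem hk hl, by group⟩
  | one => simp
  | mul a b _ _ iha ihb =>
    have : k * (a * b) * k⁻¹ = (k * a * k⁻¹) * (k * b * k⁻¹) := by group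
    rw [this]
    exact mul_mem iha ihb
  | inv a _ iha =>
    have : k * a⁻¹ * k⁻¹ = (k * a * k⁻¹)⁻¹ := by group
    rw [this]
    exact inv_mem iha

/-- [QS] `K` quasisimple, `c` normalizes but does not centralize `K`: then `K ≤ L = ⟨c^K⟩` and
`L` is generated by the `L`-class of `c`. -/
theorem qs {X : Type*} [Group X] (K : Subgroup X) (hK : Cfsg.IsQuasisimple ↥K) (c : X)
    (hcN : c ∈ normalizer (K : Set X)) (hcC : c ∉ centralizer (K : Set X)) :
    K ≤ closure {g | ∃ k ∈ K, g = k * c * k⁻¹} ∧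
    closure {g | ∃ k ∈ K, g = k * c * k⁻¹} =
      closure {g | ∃ l ∈ closure {g | ∃ k ∈ K, g = k * c * k⁻¹}, g = l * c * l⁻¹} := by
  set L := closure {g | ∃ k ∈ K, g = k * c * k⁻¹} with hL
  have hcL : c ∈ L := subset_closure ⟨1, K.one_mem, by group⟩
  have hKL : K ≤ L := by
    have hn : (L.subgroupOf K).Normal := by
      refine ⟨fun n hn g => ?_⟩
      rw [mem_subgroupOf] at hn ⊢
      exact qs_conj_mem K c g.2 hn
    rcases Cfsg.Agent.Lib.Helper27.qs_normal_eq_top_or_le_center hK (L.subgroupOf K) with h | h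
    · exact subgroupOf_eq_top.mp h
    · exfalso
      apply hcC
      have hcen : ⁅L ⊓ K, K⁆ = ⊥ := by
        rw [commutator_eq_bot_iff_le_centralizer]
        intro d hd
        rw [mem_centralizer_iff]
        intro k hk
        have h1 : (⟨d, hd.2⟩ : ↥K) ∈ center ↥K := h (mem_subgroupOf.mpr hd.1)
        have h2 := mem_center_iff.mp h1 ⟨k, hk⟩
        exact congrArg Subtype.val h2
      have hW : ⁅zpowers c, K⁆ ≤ L ⊓ K := by
        rw [commutator_le]
        intro w hw k hk
        have hwL : w ∈ L := (zpowers_le.mpr hcL) hw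
        have hwN : w ∈ normalizer (K : Set X) := (zpowers_le.mpr hcN) hw
        rw [commutatorElement_def]
        refine ⟨?_, ?_⟩
        · have : w * k * w⁻¹ * k⁻¹ = w * (k * w⁻¹ * k⁻¹) := by group
          rw [this]
          exact L.mul_mem hwL (qs_conj_mem K c hk (L.inv_mem hwL))
        · exact K.mul_mem ((mem_normalizer_iff.mp hwN k).mp hk) (K.inv_mem hk)
      have h3 : ⁅⁅zpowers c, K⁆, K⁆ = ⊥ := by
        rw [eq_bot_iff, ← hcen]
        exact commutator_mono hW le_rfl
      have h4 := Cfsg.Agent.Lib.Helper27.comm_eq_bot_of_perfect (qs_perfect K hK.1) h3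
      rw [commutator_eq_bot_iff_le_centralizer] at h4
      exact h4 (mem_zpowers c)
  refine ⟨hKL, le_antisymm ?_ ?_⟩
  · rw [hL]
    apply Subgroup.closure_mono
    rintro g ⟨k, hk, rfl⟩
    exact ⟨k, hKL hk, rfl⟩
  · rw [closure_le]
    rintro g ⟨l, hl, rfl⟩
    exact L.mul_mem (L.mul_mem hl hcL) (L.inv_mem hl)

end Cfsg.Agent.Lib.Helper52.S3C
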