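import Cfsg.Agent.Lib.Helper14.RelSylow
import Cfsg.Agent.Lib.Helper14.Conj
import Cfsg.Agent.Lib.Helper56.Basic
import Cfsg.Agent.Lib.Helper57.Qd1

/-! Lifting `p`-subgroups of a quotient together with their normalizers (Frattini argument);
normalizers of `p`-subgroups in sections are involved in normalizers of `p`-subgroups. -/

set_option autoImplicit false

namespace Cfsg.Agent.Lib.Helper14

variable {p : ℕ} [Fact p.Prime]

/-- A `p`-subgroup `Q'` of a homomorphic image lifts to a `p`-subgroup `Q` whose normalizer covers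
the normalizer of `Q'`. -/
theorem exists_isPGroup_map_eq_normalizer {Γ : Type*} [Group Γ] [Finite Γ] {T₀ : Type*} [Group T₀]
    (f : Γ →* T₀) (hf : Function.Surjective f) (Q' : Subgroup T₀) (hQ' : IsPGroup p Q') :
    ∃ Q : Subgroup Γ, IsPGroup p Q ∧ Q.map f = Q' ∧
      ∀ y ∈ Subgroup.normalizer (Q' : Set T₀), ∃ x ∈ Subgroup.normalizer (Q : Set Γ), f x = y := by
  have hs := f.subgroupComap_surjective_of_surjective Q' hf
  obtain ⟨P⟩ : Nonempty (Sylow p ↥(Q'.comap f)) := inferInstance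
  have h1 : ((P.mapSurjective hs : Sylow p ↥Q') : Subgroup ↥Q') = ⊤ :=
    ((P.mapSurjective hs).is_maximal' (hQ'.to_subgroup ⊤) le_top).symm
  rw [Sylow.coe_mapSurjective] at h1
  have hmap : ((P : Subgroup ↥(Q'.comap f)).map (Q'.comap f).subtype).map f = Q' := by
    have h2 := congrArg (Subgroup.map Q'.subtype) h1
    rw [Subgroup.map_map, ← MonoidHom.range_eq_map, Subgroup.range_subtype] at h2
    rw [Subgroup.map_map]
    exact h2
  set Q : Subgroup Γ := (P : Subgroup ↥(Q'.comap f)).map (Q'.comap f).subtype with hQdef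
  have hQp : IsPGroup p Q := P.2.map _
  have hQM : Q ≤ Q'.comap f := by
    rintro _ ⟨x, -, rfl⟩
    exact x.2
  refine ⟨Q, hQp, hmap, ?_⟩
  intro y hy
  obtain ⟨x0, rfl⟩ := hf y
  have hidx : ¬ p ∣ Q.relIndex (Q'.comap f) := by
    rw [hQdef, relIndex_map_subtype_self]
    exact P.not_dvd_index
  have hle : Q.map (MulAut.conj x0).toMonoidHom ≤ Q'.comap f := by
    rintro _ ⟨z, hz, rfl⟩
    have hz' : f z ∈ Q' := hQM hz
    show f (x0 * z * x0⁻¹) ∈ Q'
    rw [map_mul, map_mul, map_inv]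
    exact (Subgroup.mem_normalizer_iff.mp hy (f z)).mp hz'
  obtain ⟨h, hh, hhle⟩ := exists_conj_le_of_relIndex hQp hidx hle (hQp.map _)
  rw [map_conj_map_conj] at hhle
  have hN : h * x0 ∈ Subgroup.normalizer (Q : Set Γ) :=
    Helper56.mem_normalizer_of_map_le Q _ hhle
  have hfh : f h ∈ Q.map f := by
    rw [hmap]; exact hh
  obtain ⟨q, hq, hqh⟩ := hfh
  refine ⟨q⁻¹ * (h * x0), Subgroup.mul_mem _ (Subgroup.inv_mem _ (Subgroup.le_normalizer hq)) hN, ?_⟩
  rw [map_mul, map_mul, map_inv, hqh, inv_mul_cancel_left]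

/-- transitivity of involvement through a span. -/
theorem involves_of_span_of_involves {G : Type*} [Group G] {H : Type*} [Group H] {H' : Type*}
    [Group H'] {Δ : Type*} [Group Δ] (i : Δ →* G) (hi : Function.Injective i) (f : Δ →* H')
    (hf : Function.Surjective f) (h : Cfsg.Involves H H') : Cfsg.Involves H G :=
  Helper57.Qd.involves_of_injective i hi
    (Helper57.Qd.involves_trans (K := (⊤ : Subgroup Δ)) (f.comp (⊤ : Subgroup Δ).subtype)
      (fun y => by
        obtain ⟨x, rfl⟩ := hf y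
        exact ⟨⟨x, Subgroup.mem_top x⟩, rfl⟩) h)

/-- Anything involved in the normalizer of a nontrivial `p`-subgroup of a section of `G` is
involved in the normalizer of a nontrivial `p`-subgroup of `G`. -/
theorem exists_involves_normalizer_of_section {G : Type*} [Group G] [Finite G] {H : Type*}
    [Group H] (K R : Subgroup G) [hR : (R.subgroupOf K).Normal]
    (Q' : Subgroup (↥K ⧸ R.subgroupOf K)) (hQ' : IsPGroup p Q') (hne : Q' ≠ ⊥)
    (h : Cfsg.Involves H ↥(Subgroup.normalizer (Q' : Set (↥K ⧸ R.subgroupOf K)))) :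
    ∃ P : Subgroup G, IsPGroup p P ∧ P ≠ ⊥ ∧
      Cfsg.Involves H ↥(Subgroup.normalizer (P : Set G)) := by
  obtain ⟨Q, hQp, hQmap, hQN⟩ := exists_isPGroup_map_eq_normalizer
    (QuotientGroup.mk' (R.subgroupOf K)) (QuotientGroup.mk'_surjective _) Q' hQ'
  refine ⟨Q.map K.subtype, hQp.map _, ?_, ?_⟩
  · intro hbot
    apply hne
    rw [← hQmap, (Subgroup.map_eq_bot_iff_of_injective Q K.subtype_injective).mp hbot,
      Subgroup.map_bot]
  · have hi : ∀ x : ↥(Subgroup.normalizer (Q : Set ↥K)),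
        ((x : ↥K) : G) ∈ Subgroup.normalizer ((Q.map K.subtype : Subgroup G) : Set G) := by
      intro x
      apply Helper56.mem_normalizer_of_map_le
      rintro _ ⟨_, ⟨z, hz, rfl⟩, rfl⟩
      exact ⟨(x : ↥K) * z * (x : ↥K)⁻¹, (Subgroup.mem_normalizer_iff.mp x.2 z).mp hz, by simp⟩
    have hf : ∀ x : ↥(Subgroup.normalizer (Q : Set ↥K)),
        QuotientGroup.mk' (R.subgroupOf K) (x : ↥K) ∈
          Subgroup.normalizer (Q' : Set (↥K ⧸ R.subgroupOf K)) := by
      intro x
      apply Helper56.mem_normalizer_of_map_le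
      rw [← hQmap]
      rintro _ ⟨_, ⟨z, hz, rfl⟩, rfl⟩
      exact ⟨(x : ↥K) * z * (x : ↥K)⁻¹, (Subgroup.mem_normalizer_iff.mp x.2 z).mp hz, by simp⟩
    refine involves_of_span_of_involves
      ((K.subtype.comp (Subgroup.normalizer (Q : Set ↥K)).subtype).codRestrict _ hi) ?_
      (((QuotientGroup.mk' (R.subgroupOf K)).comp
        (Subgroup.normalizer (Q : Set ↥K)).subtype).codRestrict _ hf) ?_ h
    · intro a b hab
      have := congrArg Subtype.val hab
      exact Subtype.ext (Subtype.ext this)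
    · rintro ⟨y, hy⟩
      obtain ⟨x, hx, rfl⟩ := hQN y hy
      exact ⟨⟨x, hx⟩, rfl⟩

end Cfsg.Agent.Lib.Helper14
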